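import Cfsg.Agent.Lib.H24.ConstFix1

/-!
2-transitive groups with an involution `t` such that every non-identity element of `C(t)` has exactly `i` fixed
points: every element swapping two points is an involution conjugate to `t`.
-/

set_option autoImplicit false
set_option linter.unusedSectionVars false
set_option linter.unusedVariables false

namespace H24.ConstFix

open MulAction H8.Zass

universe u v

/-- the hypotheses -/
structure Hyp (G : Type u) (Ω : Type v) [Group G] [MulAction G Ω] (i : ℕ) (t : G) : Prop where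
  two : IsMultiplyPretransitive G Ω 2
  ord : orderOf t = 2
  fix : ∀ g : G, Commute g t → g ≠ 1 → Nat.card {x : Ω // g • x = x} = i

section
variable {G : Type u} {Ω : Type v} [Group G] [Finite G] [Fintype Ω] [MulAction G Ω] [FaithfulSMul G Ω]
  {i : ℕ} {t : G} (H : Hyp G Ω i t)
include H

theorem Hyp.ne_one : t ≠ 1 := by
  rintro rfl
  have := H.ord
  rw [orderOf_one] at this
  norm_num at this

theorem Hyp.mul_self : t * t = 1 := by
  rw [← pow_two, ← H.ord, pow_orderOf_eq_one]

theorem Hyp.two_trans {a b c d : Ω} (hab : a ≠ b) (hcd : c ≠ d) : ∃ g : G, g • a = c ∧ g • b = d :=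
  is_two_pretransitive_iff.1 H.two hab hcd

theorem Hyp.exists_move : ∃ x : Ω, t • x ≠ x := by
  by_contra h
  push Not at h
  exact H.ne_one (FaithfulSMul.eq_of_smul_eq_smul (α := Ω) (fun x => by rw [h x, one_smul]))

theorem Hyp.card_fix : Nat.card {x : Ω // t • x = x} = i := H.fix t (Commute.refl t) H.ne_one

theorem Hyp.card_moved : Nat.card {x : Ω // t • x ≠ x} + i = Fintype.card Ω := by
  classical
  rw [← H.card_fix, Nat.card_eq_fintype_card, Nat.card_eq_fintype_card, Fintype.card_subtype_compl]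
  have := Fintype.card_subtype_le (fun x : Ω => t • x = x)
  omega

theorem Hyp.smul_smul' (x : Ω) : t • t • x = x := by
  rw [← mul_smul, H.mul_self, one_smul]

theorem Hyp.conj_fix {g c : G} : Nat.card {x : Ω // (c * g * c⁻¹) • x = x} = Nat.card {x : Ω // g • x = x} := by
  refine Nat.card_congr
    { toFun := fun x => ⟨c⁻¹ • x.1, ?_⟩
      invFun := fun x => ⟨c • x.1, ?_⟩
      left_inv := fun x => Subtype.ext (smul_inv_smul _ _)
      right_inv := fun x => Subtype.ext (inv_smul_smul _ _) }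
  · have := x.2
    rw [mul_smul, mul_smul] at this
    exact eq_inv_smul_iff.2 this
  · rw [mul_smul, mul_smul, inv_smul_smul, x.2]

/-- every conjugate of `t` satisfies the hypotheses -/
theorem Hyp.conj {s : G} (hs : IsConj t s) : Hyp G Ω i s := by
  obtain ⟨c, rfl⟩ := isConj_iff.1 hs
  refine ⟨H.two, ?_, ?_⟩
  · rw [H16.Zass.conj_orderOf, H.ord]
  · intro g hg hg1
    have h1 : Commute (c⁻¹ * g * c) t := by
      have h2 : g * (c * t * c⁻¹) = (c * t * c⁻¹) * g := hg
      show c⁻¹ * g * c * t = t * (c⁻¹ * g * c)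
      calc c⁻¹ * g * c * t = c⁻¹ * (g * (c * t * c⁻¹)) * c := by group
        _ = c⁻¹ * ((c * t * c⁻¹) * g) * c := by rw [h2]
        _ = _ := by group
    have h2 : c⁻¹ * g * c ≠ 1 := by
      intro h
      apply hg1
      calc g = c * (c⁻¹ * g * c) * c⁻¹ := by group
        _ = 1 := by rw [h]; group
    have h3 := H.fix _ h1 h2
    rw [← h3, ← H.conj_fix (g := c⁻¹ * g * c) (c := c)]
    have h4 : c * (c⁻¹ * g * c) * c⁻¹ = g := by group
    rw [h4]

/-- the centraliser of `t` has order the number of points moved by `t`; elements swapping two points are conjugate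
to `t` -/
theorem Hyp.key : Nat.card {x : Ω // t • x ≠ x} = Nat.card (Subgroup.centralizer ({t} : Set G)) ∧
    ∀ a b : Ω, a ≠ b → ∀ w : G, w • a = b → w • b = a → IsConj t w := by
  classical
  set m := Nat.card {x : Ω // t • x ≠ x} with hm
  set c := Nat.card (Subgroup.centralizer ({t} : Set G)) with hc
  have hcpos : 0 < c := Nat.card_pos
  have hmpos : 0 < m := by
    obtain ⟨x, hx⟩ := H.exists_move
    have : Nonempty {x : Ω // t • x ≠ x} := ⟨⟨x, hx⟩⟩
    exact Nat.card_pos
  have hcm : c ≤ m := by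
    obtain ⟨r, hr⟩ := burnside (C := Subgroup.centralizer ({t} : Set G)) (Ω := Ω) (i := i) (fun g hg => by
      apply H.fix (g : G) (Subgroup.mem_centralizer_singleton_iff.1 g.2)
      exact fun h => hg (Subtype.ext h))
    rw [← hc, ← H.card_moved, ← hm] at hr
    have h1 : m + c * i = r * c := by
      obtain ⟨c', hc'⟩ : ∃ c', c = c' + 1 := ⟨c - 1, by omega⟩
      rw [hc', Nat.add_sub_cancel] at hr
      rw [hc', ← hr]
      ring
    have h2 : c ∣ m := by
      rw [(Nat.dvd_add_iff_left (Dvd.intro i rfl) : c ∣ m ↔ c ∣ m + c * i), h1]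
      exact Dvd.intro_left r rfl
    exact Nat.le_of_dvd hmpos h2
  have hinj : ∀ a b : Ω, ∃ f : {s : G // IsConj t s ∧ s • a = b} → {w : G // w • a = b ∧ w • b = a},
      Function.Injective f ∧ ∀ s, (f s : G) = s := by
    intro a b
    refine ⟨fun s => ⟨s.1, s.2.2, ?_⟩, ?_, fun s => rfl⟩
    · have h1 := (H.conj s.2.1).smul_smul' a
      rwa [s.2.2] at h1
    · intro s s' h
      exact Subtype.ext (congrArg (fun z : {w : G // w • a = b ∧ w • b = a} => z.1) h)
  have hmain : ∀ a b : Ω, a ≠ b → m = c ∧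
      Nat.card {s : G // IsConj t s ∧ s • a = b} = Nat.card {w : G // w • a = b ∧ w • b = a} := by
    intro a b hab
    obtain ⟨u, hu1, hu2⟩ := H.two_trans hab hab.symm
    have h1 := count_map H.two t hab
    have h2 := card_swap hu1 hu2
    obtain ⟨f, hf, -⟩ := hinj a b
    have h3 := Nat.card_le_card_of_injective f hf
    rw [← hc, ← hm] at h1
    have h4 : 0 < Nat.card (E2 G a b) := Nat.card_pos
    rw [h2] at h3 ⊢
    have h5 : m ≤ c := by
      apply Nat.le_of_mul_le_mul_right _ h4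
      rw [← h1, mul_comm]
      exact Nat.mul_le_mul_left c h3
    have h6 : m = c := le_antisymm h5 hcm
    refine ⟨h6, ?_⟩
    rw [h6, mul_comm] at h1
    exact Nat.eq_of_mul_eq_mul_left hcpos h1
  obtain ⟨x, hx⟩ := H.exists_move
  refine ⟨(hmain _ _ hx).1, ?_⟩
  intro a b hab w hw1 hw2
  obtain ⟨f, hf, hf'⟩ := hinj a b
  have h1 := (hmain _ _ hab).2
  have h2 := (Nat.bijective_iff_injective_and_card f).2 ⟨hf, h1⟩
  obtain ⟨s, hs⟩ := h2.2 ⟨w, hw1, hw2⟩
  have h3 : (s : G) = w := by rw [← hf', hs]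
  rw [← h3]
  exact s.2.1

theorem Hyp.card_cent : Nat.card (Subgroup.centralizer ({t} : Set G)) + i = Fintype.card Ω := by
  rw [← H.key.1, H.card_moved]

theorem Hyp.sq_of_swap {a b : Ω} (hab : a ≠ b) {w : G} (hw1 : w • a = b) (hw2 : w • b = a) : w * w = 1 :=
  (H.conj (H.key.2 a b hab w hw1 hw2)).mul_self

theorem Hyp.inv_of_swap {a b : Ω} (hab : a ≠ b) {w x : G} (hw1 : w • a = b) (hw2 : w • b = a) (hx : x ∈ E2 G a b) :
    w * x * w⁻¹ = x⁻¹ := by
  have h1 := H.sq_of_swap hab hw1 hw2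
  obtain ⟨h3, h4⟩ := mem_E2.1 hx
  have h2 := H.sq_of_swap hab (w := w * x) (by rw [mul_smul, h3, hw1]) (by rw [mul_smul, h4, hw2])
  rw [inv_eq_of_mul_eq_one_left h1]
  exact eq_inv_of_mul_eq_one_left (by rw [← h2]; group)

theorem Hyp.comm_E2 {a b : Ω} (hab : a ≠ b) {x y : G} (hx : x ∈ E2 G a b) (hy : y ∈ E2 G a b) : x * y = y * x := by
  obtain ⟨w, hw1, hw2⟩ := H.two_trans hab hab.symm
  have h1 := H.inv_of_swap hab hw1 hw2 hx
  have h2 := H.inv_of_swap hab hw1 hw2 hy
  have h3 := H.inv_of_swap hab hw1 hw2 ((E2 G a b).mul_mem hx hy)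
  have h4 : w * (x * y) * w⁻¹ = (w * x * w⁻¹) * (w * y * w⁻¹) := by group
  rw [h4, h1, h2, ← mul_inv_rev] at h3
  exact (inv_injective h3).symm

theorem Hyp.isConj {s : G} (hs : s * s = 1) (hs1 : s ≠ 1) : IsConj t s := by
  have h1 : ∃ x : Ω, s • x ≠ x := by
    by_contra h
    push Not at h
    exact hs1 (FaithfulSMul.eq_of_smul_eq_smul (α := Ω) (fun x => by rw [h x, one_smul]))
  obtain ⟨x, hx⟩ := h1
  apply H.key.2 x (s • x) (Ne.symm hx) s rfl
  rw [← mul_smul, hs, one_smul]

/-- every involution satisfies the hypotheses -/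
theorem Hyp.of_inv {s : G} (hs : s * s = 1) (hs1 : s ≠ 1) : Hyp G Ω i s := H.conj (H.isConj hs hs1)

theorem Hyp.fix_of_comm {s g : G} (hs : s * s = 1) (hs1 : s ≠ 1) (hg : g * s = s * g) (hg1 : g ≠ 1) :
    Nat.card {x : Ω // g • x = x} = i := (H.of_inv hs hs1).fix g hg hg1

end

end H24.ConstFix
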