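import Cfsg.Agent.Lib.H24.ConstFix2

/-!
2-transitive groups with an involution `t` such that every non-identity element of `C(t)` has exactly `i` fixed
points: `i ≤ 2`.
-/

set_option autoImplicit false
set_option linter.unusedSectionVars false
set_option linter.unusedVariables false

namespace H24.ConstFix

open MulAction H8.Zass

universe u v

section
variable {G : Type u} {Ω : Type v} [Group G] [Finite G] [Fintype Ω] [MulAction G Ω] [FaithfulSMul G Ω]
  {i : ℕ} {t : G} (H : Hyp G Ω i t)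
include H

theorem Hyp.exists_cent {a b : Ω} (hab : a ≠ b) (ha : t • a = a) (hb : t • b = b) :
    ∃ w : G, w • a = b ∧ w • b = a ∧ w * t = t * w := by
  obtain ⟨w, hw1, hw2⟩ := H.two_trans hab hab.symm
  refine ⟨w, hw1, hw2, ?_⟩
  have h1 := H.inv_of_swap hab hw1 hw2 (mem_E2.2 ⟨ha, hb⟩)
  rw [inv_eq_of_mul_eq_one_left H.mul_self] at h1
  exact mul_inv_eq_iff_eq_mul.1 h1

/-- the fixed-point stabiliser of `a` in `C(t)` -/
abbrev BB (t : G) (a : Ω) : Subgroup G := Subgroup.centralizer ({t} : Set G) ⊓ stabilizer G a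

omit H in
theorem mem_BB {t z : G} {a : Ω} : z ∈ BB t a ↔ z * t = t * z ∧ z • a = a := by
  rw [Subgroup.mem_inf, Subgroup.mem_centralizer_singleton_iff, mem_stabilizer_iff]

/-- orbit-stabiliser for `C(t)` on the fixed points of `t` -/
theorem Hyp.card_BB {a : Ω} (ha : t • a = a) :
    Nat.card (Subgroup.centralizer ({t} : Set G)) = i * Nat.card (BB t a) := by
  rw [← H.card_fix]
  have hmem : ∀ z : Subgroup.centralizer ({t} : Set G), t • (z : G) • a = (z : G) • a := by
    intro z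
    have h1 := Subgroup.mem_centralizer_singleton_iff.1 z.2
    rw [← mul_smul, ← h1, mul_smul, ha]
  apply card_of_fiber (fun z : Subgroup.centralizer ({t} : Set G) =>
    (⟨(z : G) • a, hmem z⟩ : {x : Ω // t • x = x}))
  · intro b
    have hw : ∃ w : G, w • a = b ∧ w * t = t * w := by
      by_cases hab : a = b
      · exact ⟨1, by rw [one_smul, hab], by rw [one_mul, mul_one]⟩
      · obtain ⟨w, h1, h2, h3⟩ := H.exists_cent hab ha b.2
        exact ⟨w, h1, h3⟩
    obtain ⟨w, hw1, hw2⟩ := hw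
    have hwC : w ∈ Subgroup.centralizer ({t} : Set G) := Subgroup.mem_centralizer_singleton_iff.2 hw2
    refine Nat.card_congr
      { toFun := fun z => ⟨w⁻¹ * z.1.1, ?_⟩
        invFun := fun z => ⟨⟨w * z.1, ?_⟩, ?_⟩
        left_inv := fun z => Subtype.ext (Subtype.ext (mul_inv_cancel_left _ _))
        right_inv := fun z => Subtype.ext (inv_mul_cancel_left _ _) }
    · refine Subgroup.mem_inf.2 ⟨Subgroup.mul_mem _ (Subgroup.inv_mem _ hwC) z.1.2, ?_⟩
      have h3 : (z.1 : G) • a = b := congrArg Subtype.val z.2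
      rw [mem_stabilizer_iff, mul_smul, h3, ← hw1, inv_smul_smul]
    · exact Subgroup.mul_mem _ hwC (Subgroup.mem_inf.1 z.2).1
    · apply Subtype.ext
      show (w * (z : G)) • a = b
      rw [mul_smul, (mem_BB.1 z.2).2, hw1]

/-- the elements of `C(t)` fixing a point moved by `t` -/
theorem Hyp.mem_BB_moved {x : Ω} (hx : t • x ≠ x) {z : G} : z ∈ BB t x ↔ z ∈ E2 G x (t • x) ∧ z * z = 1 := by
  rw [mem_BB]
  have hsw : t • t • x = x := H.smul_smul' x
  constructor
  · rintro ⟨h1, h2⟩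
    have h3 : z ∈ E2 G x (t • x) := by
      refine mem_E2.2 ⟨h2, ?_⟩
      rw [← mul_smul, h1, mul_smul, h2]
    refine ⟨h3, ?_⟩
    have h4 := H.inv_of_swap (Ne.symm hx) rfl hsw h3
    rw [← h1, mul_inv_cancel_right] at h4
    nth_rewrite 1 [h4]
    exact inv_mul_cancel z
  · rintro ⟨h1, h2⟩
    refine ⟨?_, (mem_E2.1 h1).1⟩
    have h4 := H.inv_of_swap (Ne.symm hx) rfl hsw h1
    rw [inv_eq_of_mul_eq_one_left h2] at h4
    exact (mul_inv_eq_iff_eq_mul.1 h4).symm

/-- number of elements of order at most two in the two-point stabilisers -/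
theorem Hyp.card_E2_sq {a b c d : Ω} (hab : a ≠ b) (hcd : c ≠ d) :
    Nat.card {z : G // z ∈ E2 G a b ∧ z * z = 1} = Nat.card {z : G // z ∈ E2 G c d ∧ z * z = 1} := by
  obtain ⟨g, rfl, rfl⟩ := H.two_trans hab hcd
  refine Nat.card_congr
    { toFun := fun z => ⟨g * z.1 * g⁻¹, mem_E2.2 ⟨?_, ?_⟩, ?_⟩
      invFun := fun z => ⟨g⁻¹ * z.1 * g, mem_E2.2 ⟨?_, ?_⟩, ?_⟩
      left_inv := fun z => Subtype.ext (by simp [mul_assoc])
      right_inv := fun z => Subtype.ext (by simp [mul_assoc]) }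
  · rw [mul_smul, mul_smul, inv_smul_smul, (mem_E2.1 z.2.1).1]
  · rw [mul_smul, mul_smul, inv_smul_smul, (mem_E2.1 z.2.1).2]
  · have := z.2.2
    calc g * z.1 * g⁻¹ * (g * z.1 * g⁻¹) = g * (z.1 * z.1) * g⁻¹ := by group
      _ = 1 := by rw [this]; group
  · rw [mul_smul, mul_smul, (mem_E2.1 z.2.1).1, inv_smul_smul]
  · rw [mul_smul, mul_smul, (mem_E2.1 z.2.1).2, inv_smul_smul]
  · have := z.2.2
    calc g⁻¹ * z.1 * g * (g⁻¹ * z.1 * g) = g⁻¹ * (z.1 * z.1) * g := by group
      _ = 1 := by rw [this]; group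

theorem Hyp.card_E2_eq {a b c d : Ω} (hab : a ≠ b) (hcd : c ≠ d) :
    Nat.card (E2 G a b) = Nat.card (E2 G c d) := by
  obtain ⟨g, rfl, rfl⟩ := H.two_trans hab hcd
  refine Nat.card_congr
    { toFun := fun z => ⟨g * z.1 * g⁻¹, mem_E2.2 ⟨?_, ?_⟩⟩
      invFun := fun z => ⟨g⁻¹ * z.1 * g, mem_E2.2 ⟨?_, ?_⟩⟩
      left_inv := fun z => Subtype.ext (by simp [mul_assoc])
      right_inv := fun z => Subtype.ext (by simp [mul_assoc]) }
  · rw [mul_smul, mul_smul, inv_smul_smul, (mem_E2.1 z.2).1]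
  · rw [mul_smul, mul_smul, inv_smul_smul, (mem_E2.1 z.2).2]
  · rw [mul_smul, mul_smul, (mem_E2.1 z.2).1, inv_smul_smul]
  · rw [mul_smul, mul_smul, (mem_E2.1 z.2).2, inv_smul_smul]

/-- pairs (element of `C(t)`, fixed point), first count -/
theorem Hyp.count1 :
    Nat.card {y : Subgroup.centralizer ({t} : Set G) × Ω // (y.1 : G) • y.2 = y.2} =
      Nat.card (Subgroup.centralizer ({t} : Set G)) * (1 + i) := by
  classical
  have := Fintype.ofFinite (Subgroup.centralizer ({t} : Set G))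
  have h1 : Nat.card {y : Subgroup.centralizer ({t} : Set G) × Ω // (y.1 : G) • y.2 = y.2} =
      Nat.card (Σ z : Subgroup.centralizer ({t} : Set G), {x : Ω // (z : G) • x = x}) := by
    refine Nat.card_congr
      { toFun := fun y => ⟨y.1.1, ⟨y.1.2, y.2⟩⟩
        invFun := fun y => ⟨(y.1, y.2.1), y.2.2⟩
        left_inv := fun y => rfl
        right_inv := fun y => rfl }
  rw [h1, Nat.card_sigma, ← Finset.add_sum_erase _ _ (Finset.mem_univ (1 : Subgroup.centralizer ({t} : Set G)))]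
  have h2 : Nat.card {x : Ω // ((1 : Subgroup.centralizer ({t} : Set G)) : G) • x = x} = Fintype.card Ω := by
    rw [← Nat.card_eq_fintype_card]
    exact Nat.card_congr ⟨fun x => x.1, fun x => ⟨x, one_smul _ _⟩, fun _ => rfl, fun _ => rfl⟩
  have h3 : ∑ x ∈ Finset.univ.erase (1 : Subgroup.centralizer ({t} : Set G)),
      Nat.card {y : Ω // (x : G) • y = y} = (Nat.card (Subgroup.centralizer ({t} : Set G)) - 1) * i := by
    rw [Finset.sum_congr rfl (fun (g : Subgroup.centralizer ({t} : Set G)) hg =>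
      H.fix (g : G) (Subgroup.mem_centralizer_singleton_iff.1 g.2)
      (fun h => (Finset.ne_of_mem_erase hg) (Subtype.ext h))), Finset.sum_const,
      Finset.card_erase_of_mem (Finset.mem_univ _), Finset.card_univ, smul_eq_mul, Nat.card_eq_fintype_card]
  rw [h2, h3, ← H.card_cent]
  have h4 : 0 < Nat.card (Subgroup.centralizer ({t} : Set G)) := Nat.card_pos
  obtain ⟨c', hc'⟩ : ∃ c', Nat.card (Subgroup.centralizer ({t} : Set G)) = c' + 1 :=
    ⟨Nat.card (Subgroup.centralizer ({t} : Set G)) - 1, by omega⟩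
  rw [hc', Nat.add_sub_cancel]
  ring

/-- second count: `i` is the number of elements of order at most two in a two-point stabiliser -/
theorem Hyp.count2 (hi : 1 ≤ i) {a b : Ω} (hab : a ≠ b) : Nat.card {z : G // z ∈ E2 G a b ∧ z * z = 1} = i := by
  classical
  set C := Subgroup.centralizer ({t} : Set G) with hC
  have h1 := H.count1
  rw [← hC] at h1
  -- split according to the second component
  have hsplit : Nat.card {y : C × Ω // (y.1 : G) • y.2 = y.2} =
      Nat.card {y : C × Ω // (y.1 : G) • y.2 = y.2 ∧ t • y.2 = y.2} +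
      Nat.card {y : C × Ω // (y.1 : G) • y.2 = y.2 ∧ t • y.2 ≠ y.2} := by
    rw [← Nat.card_sum]
    refine Nat.card_congr
      { toFun := fun y => if h : t • y.1.2 = y.1.2 then Sum.inl ⟨y.1, y.2, h⟩ else Sum.inr ⟨y.1, y.2, h⟩
        invFun := fun y => Sum.elim (fun y => ⟨y.1, y.2.1⟩) (fun y => ⟨y.1, y.2.1⟩) y
        left_inv := fun y => ?_
        right_inv := fun y => ?_ }
    · by_cases h : t • y.1.2 = y.1.2
      · simp [h]
      · simp [h]
    · rcases y with y | y
      · simp [y.2.2]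
      · simp [y.2.2]
  have h2 : Nat.card {y : C × Ω // (y.1 : G) • y.2 = y.2 ∧ t • y.2 = y.2} = Nat.card C := by
    have hne : Nonempty {x : Ω // t • x = x} := by
      rw [← Finite.card_pos_iff, H.card_fix]
      exact hi
    obtain ⟨x0⟩ := hne
    rw [H.card_BB x0.2, ← H.card_fix]
    refine card_of_fiber (fun y => ⟨y.1.2, y.2.2⟩) _ (fun x => ?_)
    have h4 : Nat.card (BB t x0.1) = Nat.card (BB t x.1) := by
      have h5 := H.card_BB x0.2
      have h6 := H.card_BB x.2
      exact Nat.eq_of_mul_eq_mul_left (show 0 < i by omega) (h5.symm.trans h6)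
    rw [h4]
    refine Nat.card_congr
      { toFun := fun y => ⟨(y.1.1.1 : G), ?_⟩
        invFun := fun z => ⟨⟨(⟨z.1, ?_⟩, x.1), ?_⟩, rfl⟩
        left_inv := fun y => ?_
        right_inv := fun z => rfl }
    · refine Subgroup.mem_inf.2 ⟨y.1.1.1.2, ?_⟩
      have h5 := y.1.2.1
      have h6 : y.1.1.2 = x.1 := congrArg Subtype.val y.2
      rw [mem_stabilizer_iff, ← h6]
      exact h5
    · exact (Subgroup.mem_inf.1 z.2).1
    · exact ⟨(mem_BB.1 z.2).2, x.2⟩
    · apply Subtype.ext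
      apply Subtype.ext
      have h6 : y.1.1.2 = x.1 := congrArg Subtype.val y.2
      exact Prod.ext rfl h6.symm
  have h3 : Nat.card {y : C × Ω // (y.1 : G) • y.2 = y.2 ∧ t • y.2 ≠ y.2} =
      Nat.card C * Nat.card {z : G // z ∈ E2 G a b ∧ z * z = 1} := by
    rw [← H.key.1]
    refine card_of_fiber (fun y => ⟨y.1.2, y.2.2⟩) _ (fun x => ?_)
    rw [H.card_E2_sq hab (Ne.symm x.2)]
    refine Nat.card_congr
      { toFun := fun y => ⟨(y.1.1.1 : G), ?_⟩
        invFun := fun z => ⟨⟨(⟨z.1, ?_⟩, x.1), ?_⟩, rfl⟩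
        left_inv := fun y => ?_
        right_inv := fun z => rfl }
    · have h5 := y.1.2.1
      have h6 : y.1.1.2 = x.1 := congrArg Subtype.val y.2
      rw [← H.mem_BB_moved x.2]
      refine Subgroup.mem_inf.2 ⟨y.1.1.1.2, ?_⟩
      rw [mem_stabilizer_iff, ← h6]
      exact h5
    · exact (Subgroup.mem_inf.1 ((H.mem_BB_moved x.2).2 z.2)).1
    · exact ⟨(mem_BB.1 ((H.mem_BB_moved x.2).2 z.2)).2, x.2⟩
    · apply Subtype.ext
      apply Subtype.ext
      have h6 : y.1.1.2 = x.1 := congrArg Subtype.val y.2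
      exact Prod.ext rfl h6.symm
  rw [hsplit, h2, h3] at h1
  have h4 : 0 < Nat.card C := Nat.card_pos
  apply Nat.eq_of_mul_eq_mul_left h4
  have h5 : Nat.card C * (1 + i) = Nat.card C + Nat.card C * i := by ring
  omega

end

end H24.ConstFix
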