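import Cfsg.Agent.Lib.H24.ConstFix3

/-!
2-transitive groups with an involution `t` such that every non-identity element of `C(t)` has exactly `i` fixed
points: `i ≤ 2`.
-/

set_option autoImplicit false
set_option linter.unusedSectionVars false
set_option linter.unusedVariables false

namespace H24.ConstFix

open MulAction H8.Zass

universe u v

/-- number of ordered pairs of different elements -/
theorem card_offdiag {X : Type u} [Finite X] : Nat.card {x : X × X // x.1 ≠ x.2} = Nat.card X * (Nat.card X - 1) := by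
  classical
  have := Fintype.ofFinite X
  refine card_of_fiber (fun x => x.1.1) _ (fun y => ?_)
  have h1 : Nat.card {x : {x : X × X // x.1 ≠ x.2} // x.1.1 = y} = Nat.card {z : X // z ≠ y} := by
    refine Nat.card_congr
      { toFun := fun x => ⟨x.1.1.2, ?_⟩
        invFun := fun z => ⟨⟨(y, z.1), Ne.symm z.2⟩, rfl⟩
        left_inv := fun x => Subtype.ext (Subtype.ext (Prod.ext x.2.symm rfl))
        right_inv := fun z => rfl }
    intro h
    exact x.1.2 (x.2.trans h.symm)
  rw [h1, Nat.card_eq_fintype_card, Nat.card_eq_fintype_card, Fintype.card_subtype_compl, Fintype.card_subtype_eq]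

section
variable {G : Type u} {Ω : Type v} [Group G] [Finite G] [Fintype Ω] [MulAction G Ω] [FaithfulSMul G Ω]
  {i : ℕ} {t : G} (H : Hyp G Ω i t)
include H

/-- `|C(t)| = i |D|` -/
theorem Hyp.card_cent_eq (hi : 2 ≤ i) {a b : Ω} (hab : a ≠ b) :
    Nat.card (Subgroup.centralizer ({t} : Set G)) = i * Nat.card (E2 G a b) := by
  classical
  have h1 := count_fix H.two t hab
  have h2 : Nat.card {x : Ω × Ω // x.1 ≠ x.2 ∧ t • x.1 = x.1 ∧ t • x.2 = x.2} = i * (i - 1) := by
    rw [← H.card_fix, ← card_offdiag]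
    refine Nat.card_congr
      { toFun := fun x => ⟨(⟨x.1.1, x.2.2.1⟩, ⟨x.1.2, x.2.2.2⟩), fun h => x.2.1 (congrArg Subtype.val h)⟩
        invFun := fun x => ⟨(x.1.1.1, x.1.2.1), fun h => x.2 (Subtype.ext h), x.1.1.2, x.1.2.2⟩
        left_inv := fun x => rfl
        right_inv := fun x => rfl }
  have h3 : Nat.card {s : G // IsConj t s ∧ s ∈ E2 G a b} + 1 = i := by
    rw [← H.count2 (by omega) hab]
    have h4 : Nat.card {s : G // IsConj t s ∧ s ∈ E2 G a b} + 1 =
        Nat.card ({s : G // IsConj t s ∧ s ∈ E2 G a b} ⊕ Unit) := by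
      rw [Nat.card_sum, Nat.card_unique (α := Unit)]
    rw [h4]
    refine Nat.card_congr
      { toFun := fun y => Sum.elim (fun s => ⟨s.1, s.2.2, (H.conj s.2.1).mul_self⟩) (fun _ => ⟨1, Subgroup.one_mem _, one_mul _⟩) y
        invFun := fun z => if h : z.1 = 1 then Sum.inr () else Sum.inl ⟨z.1, H.isConj z.2.2 h, z.2.1⟩
        left_inv := fun y => ?_
        right_inv := fun z => ?_ }
    · rcases y with y | y
      · have hne : y.1 ≠ 1 := (H.conj y.2.1).ne_one
        simp [hne]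
      · simp
    · by_cases h : z.1 = 1
      · simp only [h, dite_true, Sum.elim_inr]
        exact Subtype.ext h.symm
      · simp [h]
  rw [h2] at h1
  have h4 : Nat.card {s : G // IsConj t s ∧ s ∈ E2 G a b} = i - 1 := by omega
  rw [h4] at h1
  have h5 : 0 < i - 1 := by omega
  apply Nat.eq_of_mul_eq_mul_left h5
  rw [h1]
  ring

theorem Hyp.BB_eq (hi : 2 ≤ i) {a b : Ω} (hab : a ≠ b) (ha : t • a = a) (hb : t • b = b) : E2 G a b = BB t a := by
  have h1 := H.card_cent_eq hi hab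
  rw [H.card_BB ha] at h1
  have h2 := Nat.eq_of_mul_eq_mul_left (show 0 < i by omega) h1
  apply Subgroup.eq_of_le_of_card_ge _ h2.le
  intro x hx
  exact mem_BB.2 ⟨H.comm_E2 hab hx (mem_E2.2 ⟨ha, hb⟩), (mem_E2.1 hx).1⟩

/-- elements of `C(t)` moving a fixed point of `t` -/
theorem Hyp.cent_move (hi : 2 ≤ i) {a : Ω} (ha : t • a = a) {z : G} (hz : z * t = t * z) (hza : z • a ≠ a) :
    z * z = 1 ∧ ∀ x ∈ BB t a, z * x * z⁻¹ = x⁻¹ := by
  have hb : t • z • a = z • a := by rw [← mul_smul, ← hz, mul_smul, ha]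
  obtain ⟨w, hw1, hw2, hw3⟩ := H.exists_cent (Ne.symm hza) ha hb
  have h1 : w⁻¹ * z ∈ E2 G a (z • a) := by
    rw [H.BB_eq hi (Ne.symm hza) ha hb]
    refine mem_BB.2 ⟨?_, ?_⟩
    · have h5 : w⁻¹ * t = t * w⁻¹ := by
        rw [inv_mul_eq_iff_eq_mul, ← mul_assoc, hw3, mul_inv_cancel_right]
      rw [mul_assoc, hz, ← mul_assoc, h5, mul_assoc]
    · rw [mul_smul, ← hw1, inv_smul_smul]
  have h2 : z • z • a = a := by
    have h3 := (mem_E2.1 h1).2
    rw [mul_smul, inv_smul_eq_iff, hw2] at h3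
    exact h3
  refine ⟨H.sq_of_swap (Ne.symm hza) rfl h2, fun x hx => ?_⟩
  rw [← H.BB_eq hi (Ne.symm hza) ha hb] at hx
  exact H.inv_of_swap (Ne.symm hza) rfl h2 hx

theorem Hyp.exists_three (hi : 3 ≤ i) : ∃ a b c : Ω, t • a = a ∧ t • b = b ∧ t • c = c ∧ a ≠ b ∧ b ≠ c ∧ a ≠ c := by
  classical
  have h1 := H.card_fix
  rw [Nat.card_eq_fintype_card, Fintype.card_subtype] at h1
  have h2 : 2 < (Finset.univ.filter (fun x : Ω => t • x = x)).card := by omega
  obtain ⟨a, b, c, ha, hb, hc, hab, hac, hbc⟩ := Finset.two_lt_card_iff.1 h2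
  simp only [Finset.mem_filter, Finset.mem_univ, true_and] at ha hb hc
  exact ⟨a, b, c, ha, hb, hc, hab, hbc, hac⟩

/-- for `i ≥ 3` the fixator of the fixed points of `t` has exponent two -/
theorem Hyp.BB_exp (hi : 3 ≤ i) {a : Ω} (ha : t • a = a) {x : G} (hx : x ∈ BB t a) : x * x = 1 := by
  classical
  have h1 := H.card_fix
  rw [Nat.card_eq_fintype_card, Fintype.card_subtype] at h1
  have h2 : 1 < ((Finset.univ.filter (fun x : Ω => t • x = x)).erase a).card := by
    rw [Finset.card_erase_of_mem (by simp [ha]), h1]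
    omega
  obtain ⟨b, hb, c, hc, hbc⟩ := Finset.one_lt_card.1 h2
  simp only [Finset.mem_filter, Finset.mem_univ, true_and, Finset.mem_erase] at hb hc
  obtain ⟨z1, hz1, -, hz1'⟩ := H.exists_cent (Ne.symm hb.1) ha hb.2
  obtain ⟨z2, hz2, hz2'', hz2'⟩ := H.exists_cent (Ne.symm hc.1) ha hc.2
  have hi2 : 2 ≤ i := by omega
  have e1 := (H.cent_move hi2 ha hz1' (by rw [hz1]; exact hb.1)).2 x hx
  have e2 := (H.cent_move hi2 ha hz2' (by rw [hz2]; exact hc.1)).2 x hx
  -- the product moves `a` (otherwise `z1` and `z2` would agree on `a`)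
  have hz3 : (z2⁻¹ * z1) * t = t * (z2⁻¹ * z1) := by
    have h5 : z2⁻¹ * t = t * z2⁻¹ := by
      rw [inv_mul_eq_iff_eq_mul, ← mul_assoc, hz2', mul_inv_cancel_right]
    rw [mul_assoc, hz1', ← mul_assoc, h5, mul_assoc]
  have hmove : (z2⁻¹ * z1) • a ≠ a := by
    intro h
    rw [mul_smul, hz1, inv_smul_eq_iff, hz2] at h
    exact hbc h
  have e3 := (H.cent_move hi2 ha hz3 hmove).2 x hx
  -- e1: z1 x z1⁻¹ = x⁻¹ ; z2⁻¹ x⁻¹ z2 = x
  have e4 : z2⁻¹ * x⁻¹ * z2 = x := by
    rw [← e2]; group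
  have e5 : (z2⁻¹ * z1) * x * (z2⁻¹ * z1)⁻¹ = x := by
    calc (z2⁻¹ * z1) * x * (z2⁻¹ * z1)⁻¹ = z2⁻¹ * (z1 * x * z1⁻¹) * z2 := by group
      _ = x := by rw [e1, e4]
  rw [e5] at e3
  nth_rewrite 1 [e3]
  exact inv_mul_cancel x

theorem Hyp.card_E2_eq_i (hi : 3 ≤ i) {a b : Ω} (hab : a ≠ b) : Nat.card (E2 G a b) = i := by
  obtain ⟨c, d, e, hc, hd, -, hcd, -, -⟩ := H.exists_three hi
  rw [← H.count2 (by omega) hab, H.card_E2_eq hab hcd, H.card_E2_sq hab hcd]
  refine Nat.card_congr (Equiv.subtypeEquivRight fun x => ?_)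
  constructor
  · intro hx
    refine ⟨hx, ?_⟩
    rw [H.BB_eq (by omega) hcd hc hd] at hx
    exact H.BB_exp hi hc hx
  · exact fun h => h.1

/-- `C(t)` has exponent two -/
theorem Hyp.cent_exp (hi : 3 ≤ i) {z : G} (hz : z * t = t * z) : z * z = 1 := by
  obtain ⟨a, b, -, ha, -, -, -, -, -⟩ := H.exists_three hi
  by_cases hza : z • a = a
  · exact H.BB_exp hi ha (mem_BB.2 ⟨hz, hza⟩)
  · exact (H.cent_move (by omega) ha hz hza).1

theorem Hyp.cent_eq (hi : 3 ≤ i) {z : G} (hz : z * t = t * z) (hz1 : z ≠ 1) :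
    Subgroup.centralizer ({z} : Set G) = Subgroup.centralizer ({t} : Set G) := by
  symm
  have hzz := H.cent_exp hi hz
  have h1 := (H.of_inv hzz hz1).card_cent
  have h2 := H.card_cent
  apply Subgroup.eq_of_le_of_card_ge _ (by omega)
  intro y hy
  rw [Subgroup.mem_centralizer_singleton_iff] at hy ⊢
  have h3 := H.cent_exp hi hy
  have h4 := H.cent_exp hi (z := y * z) (by rw [mul_assoc, hz, ← mul_assoc, hy, mul_assoc])
  rw [← inv_eq_of_mul_eq_one_left h4, mul_inv_rev, inv_eq_of_mul_eq_one_left h3, inv_eq_of_mul_eq_one_left hzz]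

/-- `i ≤ 2` -/
theorem Hyp.le_two : i ≤ 2 := by
  classical
  by_contra hi
  have hi : 3 ≤ i := by omega
  obtain ⟨a, b, -, ha, hb, -, hab, -, -⟩ := H.exists_three hi
  have hD := H.card_E2_eq_i hi hab
  have hC := H.card_cent_eq (by omega) hab
  rw [hD] at hC
  have hn := H.card_cent
  rw [hC] at hn
  -- number of involutions
  have h1 : Nat.card G = Nat.card {s : G // IsConj t s} * (i * i) := by
    have h2 := count_conj t (fun _ => True)
    rw [hC] at h2
    have h3 : Nat.card {g : G // True} = Nat.card G := Nat.card_congr (Equiv.subtypeUnivEquiv fun _ => trivial)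
    have h4 : Nat.card {s : G // IsConj t s ∧ True} = Nat.card {s : G // IsConj t s} :=
      Nat.card_congr (Equiv.subtypeEquivRight fun s => iff_of_eq (and_true _))
    rw [← h3, h2, h4]
  have h2 : Nat.card G = (Fintype.card Ω * (Fintype.card Ω - 1)) * i := by
    have h2 := count_pair H.two hab (fun _ => True)
    rw [hD] at h2
    have h3 : Nat.card {g : G // True} = Nat.card G := Nat.card_congr (Equiv.subtypeUnivEquiv fun _ => trivial)
    have h4 : Nat.card {x : Ω × Ω // x.1 ≠ x.2 ∧ True} = Nat.card {x : Ω × Ω // x.1 ≠ x.2} :=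
      Nat.card_congr (Equiv.subtypeEquivRight fun s => iff_of_eq (and_true _))
    rw [← h3, h2, h4, card_offdiag, Nat.card_eq_fintype_card]
  -- the partition of the involutions
  have h3 : ∃ k, Nat.card {s : G // IsConj t s} = k * (i * i - 1) := by
    let f : {s : G // IsConj t s} → Set.range (fun s : {s : G // IsConj t s} => Subgroup.centralizer ({(s : G)} : Set G)) :=
      fun s => ⟨_, s, rfl⟩
    refine ⟨_, card_of_fiber f _ ?_⟩
    rintro ⟨_, s0, rfl⟩
    have H0 := H.conj s0.2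
    have hC0 := (H0.card_cent_eq (by omega) hab)
    rw [hD] at hC0
    have h5 : Nat.card {z : Subgroup.centralizer ({(s0 : G)} : Set G) // z ≠ 1} = i * i - 1 := by
      have := Fintype.ofFinite (Subgroup.centralizer ({(s0 : G)} : Set G))
      rw [Nat.card_eq_fintype_card, Fintype.card_subtype_compl, Fintype.card_subtype_eq, ← Nat.card_eq_fintype_card, hC0]
    rw [← h5]
    refine Nat.card_congr
      { toFun := fun s => ⟨⟨s.1.1, ?_⟩, ?_⟩
        invFun := fun z => ⟨⟨z.1.1, ?_⟩, ?_⟩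
        left_inv := fun s => rfl
        right_inv := fun z => rfl }
    · have h6 : Subgroup.centralizer ({(s.1.1 : G)} : Set G) = Subgroup.centralizer ({(s0 : G)} : Set G) :=
        congrArg Subtype.val s.2
      rw [← h6, Subgroup.mem_centralizer_singleton_iff]
    · intro h
      exact (H.conj s.1.2).ne_one (congrArg Subtype.val h)
    · have h6 := H0.cent_exp hi (Subgroup.mem_centralizer_singleton_iff.1 z.1.2)
      exact H.isConj h6 (fun h => z.2 (Subtype.ext h))
    · apply Subtype.ext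
      exact H0.cent_eq hi (Subgroup.mem_centralizer_singleton_iff.1 z.1.2) (fun h => z.2 (Subtype.ext h))
  obtain ⟨k, hk⟩ := h3
  rw [h1, hk, ← hn] at h2
  -- k (i² - 1) i² = (i² + i)(i² + i - 1) i
  obtain ⟨j, rfl⟩ : ∃ j, i = j + 3 := ⟨i - 3, by omega⟩
  have e1 : (j + 3) * (j + 3) - 1 = (j + 2) * (j + 4) := by
    rw [show (j + 3) * (j + 3) = (j + 2) * (j + 4) + 1 by ring, Nat.add_sub_cancel]
  have e2 : (j + 3) * (j + 3) + (j + 3) - 1 = (j + 2) * (j + 5) + 1 := by
    rw [show (j + 3) * (j + 3) + (j + 3) = (j + 2) * (j + 5) + 1 + 1 by ring, Nat.add_sub_cancel]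
  rw [e1, e2] at h2
  have e3 : (j + 3) * (j + 3) * (j + 4) * (k * (j + 2)) = (j + 3) * (j + 3) * (j + 4) * ((j + 2) * (j + 5) + 1) := by
    calc (j + 3) * (j + 3) * (j + 4) * (k * (j + 2)) = k * ((j + 2) * (j + 4)) * ((j + 3) * (j + 3)) := by ring
      _ = ((j + 3) * (j + 3) + (j + 3)) * ((j + 2) * (j + 5) + 1) * (j + 3) := h2
      _ = _ := by ring
  have e4 := Nat.eq_of_mul_eq_mul_left (by positivity) e3
  have e5 : (j + 2) ∣ 1 := by
    have h7 : (j + 2) ∣ (j + 2) * (j + 5) + 1 := by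
      rw [← e4]
      exact Dvd.intro_left k rfl
    exact (Nat.dvd_add_right (Dvd.intro _ rfl)).1 h7
  have := Nat.le_of_dvd one_pos e5
  omega

/-- for `i = 2` no non-identity element fixes three points -/
theorem Hyp.three_of_two (hi : 2 ≤ i) {g : G} {a b c : Ω} (hab : a ≠ b) (hbc : b ≠ c) (hac : a ≠ c)
    (ha : g • a = a) (hb : g • b = b) (hc : g • c = c) : g = 1 := by
  classical
  by_contra hg
  have hi2 : i = 2 := le_antisymm H.le_two hi
  -- an involution fixing `a` and `b`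
  have h1 := H.card_fix
  rw [Nat.card_eq_fintype_card, Fintype.card_subtype] at h1
  have h2 : 1 < (Finset.univ.filter (fun x : Ω => t • x = x)).card := by omega
  obtain ⟨x, hx, y, hy, hxy⟩ := Finset.one_lt_card.1 h2
  simp only [Finset.mem_filter, Finset.mem_univ, true_and] at hx hy
  obtain ⟨k, hk1, hk2⟩ := H.two_trans hxy hab
  have H' := H.conj (isConj_iff.2 ⟨k, rfl⟩ : IsConj t (k * t * k⁻¹))
  have hta : (k * t * k⁻¹) • a = a := by rw [← hk1, mul_smul, mul_smul, inv_smul_smul, hx]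
  have htb : (k * t * k⁻¹) • b = b := by rw [← hk2, mul_smul, mul_smul, inv_smul_smul, hy]
  have h3 := H'.fix g (H.comm_E2 hab (mem_E2.2 ⟨ha, hb⟩) (mem_E2.2 ⟨hta, htb⟩)) hg
  rw [Nat.card_eq_fintype_card, Fintype.card_subtype, hi2] at h3
  have h4 : 2 < (Finset.univ.filter (fun x : Ω => g • x = x)).card :=
    Finset.two_lt_card_iff.2 ⟨a, b, c, by simp [ha], by simp [hb], by simp [hc], hab, hac, hbc⟩
  omega

end

end H24.ConstFix
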