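import Cfsg.Agent.Lib.H24.ConstFix4

/-!
2-transitive groups with an involution `t` such that every non-identity element of `C(t)` has exactly `i` fixed
points: the case `i ≤ 1`.
-/

set_option autoImplicit false
set_option linter.unusedSectionVars false
set_option linter.unusedVariables false

namespace H24.ConstFix

open MulAction H8.Zass

universe u v

section
variable {G : Type u} {Ω : Type v} [Group G] [Finite G] [Fintype Ω] [MulAction G Ω] [FaithfulSMul G Ω]
  {i : ℕ} {t : G} (H : Hyp G Ω i t)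
include H

theorem Hyp.not_two_fix (hi : i ≤ 1) {g : G} (hg : Nat.card {x : Ω // g • x = x} = i) {a b : Ω} (hab : a ≠ b)
    (ha : g • a = a) (hb : g • b = b) : False := by
  classical
  rw [Nat.card_eq_fintype_card, Fintype.card_subtype] at hg
  have h2 : 1 < (Finset.univ.filter (fun x : Ω => g • x = x)).card :=
    Finset.one_lt_card.2 ⟨a, by simp [ha], b, by simp [hb], hab⟩
  omega

/-- an involution commutes only with elements fixing at most one point -/
theorem Hyp.no_inv_cent (hi : i ≤ 1) {a b : Ω} (hab : a ≠ b) {x s : G} (hx : x ∈ E2 G a b) (hx1 : x ≠ 1)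
    (hs : s * s = 1) (hsx : s * x = x * s) : s = 1 := by
  by_contra hs1
  exact H.not_two_fix hi (H.fix_of_comm hs hs1 hsx.symm hx1) hab (mem_E2.1 hx).1 (mem_E2.1 hx).2

theorem Hyp.sq_ne (hi : i ≤ 1) {a b : Ω} (hab : a ≠ b) {x : G} (hx : x ∈ E2 G a b) (hx1 : x ≠ 1) : x * x ≠ 1 := by
  intro h
  exact hx1 (H.no_inv_cent hi hab hx hx1 h rfl)

theorem Hyp.odd_cent (hi : i ≤ 1) {a b : Ω} (hab : a ≠ b) {x : G} (hx : x ∈ E2 G a b) (hx1 : x ≠ 1) :
    Odd (Nat.card (Subgroup.centralizer ({x} : Set G))) := by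
  rw [← Nat.not_even_iff_odd]
  intro h
  obtain ⟨s, hs⟩ := exists_prime_orderOf_dvd_card' (G := Subgroup.centralizer ({x} : Set G)) 2 h.two_dvd
  have h1 : s * s = 1 := by rw [← pow_two, ← hs, pow_orderOf_eq_one]
  have h2 : (s : G) * s = 1 := congrArg Subtype.val h1
  have h3 := H.no_inv_cent hi hab hx hx1 h2 (Subgroup.mem_centralizer_singleton_iff.1 s.2)
  have h4 : s = 1 := Subtype.ext h3
  rw [h4, orderOf_one] at hs
  norm_num at hs

omit H in
theorem conj_sq {g s : G} (hs : s * s = 1) : g * s * g⁻¹ * (g * s * g⁻¹) = 1 := by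
  calc g * s * g⁻¹ * (g * s * g⁻¹) = g * (s * s) * g⁻¹ := by group
    _ = 1 := by rw [hs]; group

omit H in
theorem conj_ne {g s : G} (hs : s ≠ 1) : g * s * g⁻¹ ≠ 1 := by
  intro h
  apply hs
  rw [mul_inv_eq_one, mul_eq_left] at h
  exact h

omit H in
/-- an involution stabilising a set of odd size fixes a point of it -/
theorem exists_fix_of_odd {w : G} (hw : w * w = 1) {S : Set Ω} (hS : ∀ y ∈ S, w • y ∈ S) (hodd : Odd (Nat.card S)) :
    ∃ y ∈ S, w • y = y := by
  classical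
  have hww : ∀ y : Ω, w • w • y = y := fun y => by rw [← mul_smul, hw, one_smul]
  let σ : Equiv.Perm S :=
    { toFun := fun y => ⟨w • y.1, hS y.1 y.2⟩
      invFun := fun y => ⟨w • y.1, hS y.1 y.2⟩
      left_inv := fun y => Subtype.ext (hww y.1)
      right_inv := fun y => Subtype.ext (hww y.1) }
  have hσ : σ ^ 2 ^ 1 = 1 := by
    rw [pow_one, pow_two]
    apply Equiv.ext
    intro y
    apply Subtype.ext
    show w • w • y.1 = y.1
    rw [← mul_smul, hw, one_smul]
  have h1 : ¬ 2 ∣ Fintype.card S := by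
    rw [← Nat.card_eq_fintype_card]
    exact hodd.not_two_dvd_nat
  obtain ⟨y, hy⟩ := Equiv.Perm.exists_fixed_point_of_prime h1 hσ
  exact ⟨y.1, y.2, congrArg Subtype.val hy⟩

/-- the centraliser of `x` is transitive on the fixed points of `x` as soon as there are at least three -/
theorem Hyp.trans_fix {x : G} {a b c : Ω} (hab : a ≠ b) (hbc : b ≠ c) (hac : a ≠ c) (ha : x • a = a)
    (hb : x • b = b) (hc : x • c = c) {y z : Ω} (hy : x • y = y) (hz : x • z = z) :
    ∃ g : G, g * x = x * g ∧ g • y = z := by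
  -- two swaps give an element of the centraliser
  have key : ∀ u v w : Ω, u ≠ v → v ≠ w → x • u = u → x • v = v → x • w = w →
      ∃ g : G, g * x = x * g ∧ g • u = w := by
    intro u v w huv hvw hu hv hw
    obtain ⟨s, hs1, hs2⟩ := H.two_trans huv huv.symm
    obtain ⟨r, hr1, hr2⟩ := H.two_trans hvw hvw.symm
    have e1 := H.inv_of_swap huv hs1 hs2 (mem_E2.2 ⟨hu, hv⟩)
    have e2 := H.inv_of_swap hvw hr1 hr2 ((E2 G v w).inv_mem (mem_E2.2 ⟨hv, hw⟩))
    refine ⟨r * s, ?_, by rw [mul_smul, hs1, hr1]⟩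
    rw [inv_inv] at e2
    have e3 : (r * s) * x * (r * s)⁻¹ = x := by
      calc (r * s) * x * (r * s)⁻¹ = r * (s * x * s⁻¹) * r⁻¹ := by group
        _ = x := by rw [e1, e2]
    exact mul_inv_eq_iff_eq_mul.1 e3
  by_cases hyz : y = z
  · exact ⟨1, by rw [one_mul, mul_one], by rw [one_smul, hyz]⟩
  -- a third point
  have h3 : ∃ v : Ω, x • v = v ∧ y ≠ v ∧ v ≠ z := by
    by_cases h1 : a ≠ y ∧ a ≠ z
    · exact ⟨a, ha, h1.1.symm, h1.2⟩
    by_cases h2 : b ≠ y ∧ b ≠ z
    · exact ⟨b, hb, h2.1.symm, h2.2⟩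
    refine ⟨c, hc, ?_, ?_⟩
    · rintro rfl
      have e1 : a = z := by
        by_contra h
        exact h1 ⟨hac, h⟩
      have e2 : b = z := by
        by_contra h
        exact h2 ⟨hbc, h⟩
      exact hab (e1.trans e2.symm)
    · rintro rfl
      have e1 : a = y := by
        by_contra h
        exact h1 ⟨h, hac⟩
      have e2 : b = y := by
        by_contra h
        exact h2 ⟨h, hbc⟩
      exact hab (e1.trans e2.symm)
  obtain ⟨v, hv, hyv, hvz⟩ := h3
  exact key y v z hyv hvz hy hv hz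

theorem Hyp.odd_fix (hi : i ≤ 1) {x : G} (hx1 : x ≠ 1) {a b c : Ω} (hab : a ≠ b) (hbc : b ≠ c) (hac : a ≠ c)
    (ha : x • a = a) (hb : x • b = b) (hc : x • c = c) : Odd (Nat.card {y : Ω | x • y = y}) := by
  have h1 := H.odd_cent hi hab (mem_E2.2 ⟨ha, hb⟩) hx1
  have h2 : {y : Ω | x • y = y} = orbit (Subgroup.centralizer ({x} : Set G)) a := by
    ext y
    rw [Set.mem_setOf_eq, mem_orbit_iff]
    constructor
    · intro hy
      obtain ⟨g, hg1, hg2⟩ := H.trans_fix hab hbc hac ha hb hc ha hy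
      exact ⟨⟨g, Subgroup.mem_centralizer_singleton_iff.2 hg1⟩, hg2⟩
    · rintro ⟨g, rfl⟩
      have h3 := Subgroup.mem_centralizer_singleton_iff.1 g.2
      show x • (g : G) • a = (g : G) • a
      rw [← mul_smul, ← h3, mul_smul, ha]
  rw [h2]
  have h3 := H16.PermStab.card_orbit_mul_card_stab (H := Subgroup.centralizer ({x} : Set G)) a
  rw [← h3] at h1
  exact (Nat.odd_mul.1 h1).1

/-- if `i ≤ 1` and some non-identity element fixes three points then every element inverting it fixes one of its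
fixed points -/
theorem Hyp.inv_fix (hi : i ≤ 1) {x : G} (hx1 : x ≠ 1) {a b c : Ω} (hab : a ≠ b) (hbc : b ≠ c) (hac : a ≠ c)
    (ha : x • a = a) (hb : x • b = b) (hc : x • c = c) {w : G} (hw : w * w = 1) (hwx : w * x * w⁻¹ = x⁻¹) :
    ∃ y : Ω, x • y = y ∧ w • y = y := by
  have h1 := H.odd_fix hi hx1 hab hbc hac ha hb hc
  apply exists_fix_of_odd hw _ h1
  intro y hy
  have hy' : x • y = y := hy
  have h2 : x * w = w * x⁻¹ := by
    have h3 : x = (w * x⁻¹ * w⁻¹) := by
      calc x = (x⁻¹)⁻¹ := (inv_inv x).symm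
        _ = (w * x * w⁻¹)⁻¹ := by rw [hwx]
        _ = _ := by group
    nth_rewrite 1 [h3]
    rw [inv_mul_cancel_right]
  show x • w • y = w • y
  rw [← mul_smul, h2, mul_smul, inv_smul_eq_iff.2 hy'.symm]

theorem Hyp.one_of_three (hi : i ≤ 1) {x : G} (hx1 : x ≠ 1) {a b c : Ω} (hab : a ≠ b) (hbc : b ≠ c) (hac : a ≠ c)
    (ha : x • a = a) (hb : x • b = b) (hc : x • c = c) : i = 1 := by
  obtain ⟨w, hw1, hw2⟩ := H.two_trans hab hab.symm
  have hww := H.sq_of_swap hab hw1 hw2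
  obtain ⟨y, -, hy⟩ := H.inv_fix hi hx1 hab hbc hac ha hb hc hww (H.inv_of_swap hab hw1 hw2 (mem_E2.2 ⟨ha, hb⟩))
  have h1 := (H.conj (H.key.2 a b hab w hw1 hw2)).card_fix
  have h2 : Nonempty {x : Ω // w • x = x} := ⟨⟨y, hy⟩⟩
  have h3 : 0 < Nat.card {x : Ω // w • x = x} := Nat.card_pos
  omega

/-- counting involutions fixing a point -/
theorem Hyp.count_inv (hi : i = 1) {P : G → Prop} {Q : Ω → Prop}
    (h1 : ∀ y z, Q y → Q z → y ≠ z → ∀ w : G, w • y = z → w • z = y → P w)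
    (h2 : ∀ w, P w → IsConj t w) (h3 : ∀ w, P w → ∀ y, Q y → Q (w • y))
    (h4 : ∀ w, P w → ∃ y : Ω, Q y ∧ w • y = y) {a b : Ω} (hab : a ≠ b) (ha : Q a) (hb : Q b) {y : Ω} (hy : Q y) :
    Nat.card {w : G // P w ∧ w • y = y} = Nat.card (E2 G a b) := by
  classical
  set f := Nat.card {z : Ω // Q z} with hf
  have hf2 : 2 ≤ f := by
    rw [hf, Nat.card_eq_fintype_card, Fintype.card_subtype]
    exact Finset.one_lt_card.2 ⟨a, by simp [ha], b, by simp [hb], hab⟩
  -- number of elements moving `y`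
  have hmove : ∀ y, Q y → Nat.card {w : G // P w ∧ w • y ≠ y} = (f - 1) * Nat.card (E2 G a b) := by
    intro y hy
    have e1 : f - 1 = Nat.card {z : {z : Ω // Q z} // z ≠ ⟨y, hy⟩} := by
      rw [hf, Nat.card_eq_fintype_card, Nat.card_eq_fintype_card, Fintype.card_subtype_compl, Fintype.card_subtype_eq]
    rw [e1]
    apply card_of_fiber (fun w : {w : G // P w ∧ w • y ≠ y} =>
      (⟨⟨w.1 • y, h3 w.1 w.2.1 y hy⟩, fun h => w.2.2 (congrArg Subtype.val h)⟩ :
        {z : {z : Ω // Q z} // z ≠ ⟨y, hy⟩}))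
    intro z
    have hyz : y ≠ z.1.1 := fun h => z.2 (Subtype.ext h.symm)
    obtain ⟨u, hu1, hu2⟩ := H.two_trans hyz hyz.symm
    rw [H.card_E2_eq hab hyz, ← card_swap hu1 hu2]
    refine Nat.card_congr
      { toFun := fun w => ⟨w.1.1, ?_, ?_⟩
        invFun := fun w => ⟨⟨w.1, ?_, ?_⟩, ?_⟩
        left_inv := fun w => rfl
        right_inv := fun w => rfl }
    · exact congrArg (fun z => z.1.1) w.2
    · have e2 : w.1.1 • y = z.1.1 := congrArg (fun z => z.1.1) w.2
      have e3 := (H.conj (h2 _ w.1.2.1)).smul_smul' y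
      rwa [e2] at e3
    · exact h1 y z.1.1 hy z.1.2 hyz w.1 w.2.1 w.2.2
    · rw [w.2.1]
      exact hyz.symm
    · exact Subtype.ext (Subtype.ext w.2.1)
  have hsplit : ∀ y : Ω, Nat.card {w : G // P w} = Nat.card {w : G // P w ∧ w • y = y} + Nat.card {w : G // P w ∧ w • y ≠ y} := by
    intro y
    rw [← Nat.card_sum]
    refine Nat.card_congr
      { toFun := fun w => if h : w.1 • y = y then Sum.inl ⟨w.1, w.2, h⟩ else Sum.inr ⟨w.1, w.2, h⟩
        invFun := fun w => Sum.elim (fun w => ⟨w.1, w.2.1⟩) (fun w => ⟨w.1, w.2.1⟩) w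
        left_inv := fun w => ?_
        right_inv := fun w => ?_ }
    · by_cases h : w.1 • y = y
      · simp [h]
      · simp [h]
    · rcases w with w | w
      · simp [w.2.2]
      · simp [w.2.2]
  set β := Nat.card {w : G // P w ∧ w • y = y} with hβ
  have hconst : ∀ z, Q z → Nat.card {w : G // P w ∧ w • z = z} = β := by
    intro z hz
    have e1 := hsplit y
    have e2 := hsplit z
    rw [hmove y hy, ← hβ] at e1
    rw [hmove z hz] at e2
    omega
  have huniq : ∀ w, P w → ∀ u v : Ω, w • u = u → w • v = v → u = v := by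
    intro w hw u v hu hv
    by_contra huv
    exact H.not_two_fix hi.le ((H.conj (h2 w hw)).card_fix) huv hu hv
  have hsum : Nat.card {w : G // P w} = f * β := by
    choose g hg1 hg2 using h4
    apply card_of_fiber (fun w : {w : G // P w} => (⟨g w.1 w.2, hg1 w.1 w.2⟩ : {z : Ω // Q z}))
    intro z
    rw [← hconst z.1 z.2]
    refine Nat.card_congr
      { toFun := fun w => ⟨w.1.1, w.1.2, ?_⟩
        invFun := fun w => ⟨⟨w.1, w.2.1⟩, ?_⟩
        left_inv := fun w => rfl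
        right_inv := fun w => rfl }
    · have e1 : g w.1.1 w.1.2 = z.1 := congrArg Subtype.val w.2
      rw [← e1]
      exact hg2 _ _
    · apply Subtype.ext
      exact huniq w.1 w.2.1 _ _ (hg2 _ _) w.2.2
  have e1 := hsplit y
  rw [hmove y hy, ← hβ, hsum] at e1
  obtain ⟨k, hk⟩ : ∃ k, f = k + 2 := ⟨f - 2, by omega⟩
  rw [hk] at e1
  have e2 : k + 2 - 1 = k + 1 := rfl
  rw [e2] at e1
  have e3 : (k + 1) * β = (k + 1) * Nat.card (E2 G a b) := by
    have : (k + 2) * β = (k + 1) * β + β := by ring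
    omega
  exact Nat.eq_of_mul_eq_mul_left (by omega) e3

/-- if `i ≤ 1` and some non-identity element fixes three points then different involutions do not commute -/
theorem Hyp.comm_eq (hi : i ≤ 1) {x : G} (hx1 : x ≠ 1) {a b c : Ω} (hab : a ≠ b) (hbc : b ≠ c) (hac : a ≠ c)
    (ha : x • a = a) (hb : x • b = b) (hc : x • c = c) {s r : G} (hs : s * s = 1) (hs1 : s ≠ 1) (hr : r * r = 1)
    (hr1 : r ≠ 1) (hsr : s * r = r * s) : s = r := by
  classical
  have hi1 := H.one_of_three hi hx1 hab hbc hac ha hb hc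
  -- all involutions fixing `a` invert `x`
  have hall : ∀ w : G, w * w = 1 → w ≠ 1 → w • a = a → w * x * w⁻¹ = x⁻¹ := by
    have e1 := H.count_inv hi1 (P := fun w => IsConj t w) (Q := fun _ => True)
      (fun y z _ _ hyz w hw1 hw2 => H.key.2 y z hyz w hw1 hw2) (fun w hw => hw) (fun _ _ _ _ => trivial)
      (fun w hw => by
        have h1 := (H.conj hw).card_fix
        rw [hi1, Nat.card_eq_one_iff_unique] at h1
        obtain ⟨-, ⟨y⟩⟩ := h1
        exact ⟨y.1, trivial, y.2⟩) hab trivial trivial (y := a) trivial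
    have e2 := H.count_inv hi1 (P := fun w => IsConj t w ∧ w * x * w⁻¹ = x⁻¹) (Q := fun y => x • y = y)
      (fun y z hy hz hyz w hw1 hw2 => ⟨H.key.2 y z hyz w hw1 hw2, H.inv_of_swap hyz hw1 hw2 (mem_E2.2 ⟨hy, hz⟩)⟩)
      (fun w hw => hw.1)
      (fun w hw y hy => by
        have h2 : x * w = w * x⁻¹ := by
          have h3 : x = (w * x⁻¹ * w⁻¹) := by
            calc x = (x⁻¹)⁻¹ := (inv_inv x).symm
              _ = (w * x * w⁻¹)⁻¹ := by rw [hw.2]
              _ = _ := by group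
          nth_rewrite 1 [h3]
          rw [inv_mul_cancel_right]
        show x • w • y = w • y
        rw [← mul_smul, h2, mul_smul, inv_smul_eq_iff.2 hy.symm])
      (fun w hw => H.inv_fix hi hx1 hab hbc hac ha hb hc (H.conj hw.1).mul_self hw.2) hab ha hb (y := a) ha
    let f : {w : G // (IsConj t w ∧ w * x * w⁻¹ = x⁻¹) ∧ w • a = a} → {w : G // IsConj t w ∧ w • a = a} :=
      fun w => ⟨w.1, w.2.1.1, w.2.2⟩
    have hf : Function.Injective f := by
      intro w w' h
      exact Subtype.ext (congrArg (fun z : {w : G // IsConj t w ∧ w • a = a} => z.1) h)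
    have hf2 := ((Nat.bijective_iff_injective_and_card f).2 ⟨hf, e2.trans e1.symm⟩).2
    intro w hw hw1 hwa
    obtain ⟨w', hw'⟩ := hf2 ⟨w, H.isConj hw hw1, hwa⟩
    have h5 : w'.1 = w := congrArg (fun z : {w : G // IsConj t w ∧ w • a = a} => z.1) hw'
    rw [← h5]
    exact w'.2.1.2
  -- two commuting involutions fix the same point
  have h1 := (H.of_inv hs hs1).card_fix
  rw [hi1, Nat.card_eq_one_iff_unique] at h1
  obtain ⟨hsub, ⟨y⟩⟩ := h1
  have hry : r • y.1 = y.1 := by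
    have h3 : s • r • y.1 = r • y.1 := by rw [← mul_smul, hsr, mul_smul, y.2]
    exact congrArg Subtype.val (Subsingleton.elim (⟨r • y.1, h3⟩ : {x : Ω // s • x = x}) y)
  obtain ⟨y', hyy'⟩ : ∃ y', y.1 ≠ y' := by
    by_cases h : y.1 = a
    · exact ⟨b, h ▸ hab⟩
    · exact ⟨a, h⟩
  obtain ⟨g, hg, -⟩ := H.two_trans hyy' hab
  have hsa : (g * s * g⁻¹) • a = a := by rw [← hg, mul_smul, mul_smul, inv_smul_smul, y.2]
  have hra : (g * r * g⁻¹) • a = a := by rw [← hg, mul_smul, mul_smul, inv_smul_smul, hry]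
  have e1 := hall (g * s * g⁻¹) (conj_sq hs) (conj_ne hs1) hsa
  have e2 := hall (g * r * g⁻¹) (conj_sq hr) (conj_ne hr1) hra
  have e3 : (g * s * g⁻¹) * (g * r * g⁻¹) = 1 := by
    apply H.no_inv_cent hi hab (mem_E2.2 ⟨ha, hb⟩) hx1
    · calc (g * s * g⁻¹) * (g * r * g⁻¹) * ((g * s * g⁻¹) * (g * r * g⁻¹)) = g * (s * r * s * r) * g⁻¹ := by group
        _ = g * (r * s * s * r) * g⁻¹ := by rw [hsr]
        _ = g * (r * (s * s) * r) * g⁻¹ := by group
        _ = g * (r * r) * g⁻¹ := by rw [hs]; group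
        _ = 1 := by rw [hr]; group
    · have e4 : (g * r * g⁻¹) * x⁻¹ * (g * r * g⁻¹)⁻¹ = x := by
        calc (g * r * g⁻¹) * x⁻¹ * (g * r * g⁻¹)⁻¹ = ((g * r * g⁻¹) * x * (g * r * g⁻¹)⁻¹)⁻¹ := by group
          _ = x := by rw [e2, inv_inv]
      have e5 : ((g * s * g⁻¹) * (g * r * g⁻¹)) * x * ((g * s * g⁻¹) * (g * r * g⁻¹))⁻¹ = x := by
        calc ((g * s * g⁻¹) * (g * r * g⁻¹)) * x * ((g * s * g⁻¹) * (g * r * g⁻¹))⁻¹ =
            (g * s * g⁻¹) * ((g * r * g⁻¹) * x * (g * r * g⁻¹)⁻¹) * (g * s * g⁻¹)⁻¹ := by group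
          _ = (g * s * g⁻¹) * x⁻¹ * (g * s * g⁻¹)⁻¹ := by rw [e2]
          _ = ((g * s * g⁻¹) * x * (g * s * g⁻¹)⁻¹)⁻¹ := by group
          _ = x := by rw [e1, inv_inv]
      exact mul_inv_eq_iff_eq_mul.1 e5
  have e4 : s * r = 1 := by
    calc s * r = g⁻¹ * ((g * s * g⁻¹) * (g * r * g⁻¹)) * g := by group
      _ = 1 := by rw [e3]; group
  have e5 : r = s⁻¹ := eq_inv_of_mul_eq_one_right e4
  rw [e5, inv_eq_of_mul_eq_one_left hs]

end

end H24.ConstFix
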