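import Cfsg.Agent.Lib.H24.ConstFix5
import Cfsg.Agent.Lib.H8.SzRec11
import Cfsg.Agent.Lib.H29.OddFinal
import Cfsg.Agent.S0215

/-!
2-transitive groups with an involution `t` such that every non-identity element of `C(t)` has exactly `i` fixed
points: classification.
-/

set_option autoImplicit false
set_option linter.unusedSectionVars false
set_option linter.unusedVariables false

namespace H24.ConstFix

open MulAction H8.Zass Cfsg

universe u v

/-- `G` has a regular normal subgroup -/
def HasReg (G : Type u) (Ω : Type v) [Group G] [MulAction G Ω] : Prop :=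
  ∃ R : Subgroup G, R.Normal ∧ (∀ x y : Ω, ∃ r ∈ R, r • x = y) ∧ ∀ x : Ω, ∀ r ∈ R, r • x = x → r = 1

section
variable {G : Type u} {Ω : Type v} [Group G] [Finite G] [Fintype Ω] [MulAction G Ω] [FaithfulSMul G Ω]

/-- a non-trivial abelian normal subgroup of a 2-transitive group is regular -/
theorem hasReg_of_comm (h2 : IsMultiplyPretransitive G Ω 2) (A : Subgroup G) [A.Normal] (hA : A ≠ ⊥)
    (hc : ∀ x ∈ A, ∀ y ∈ A, x * y = y * x) : HasReg G Ω := by
  have hprim : IsPreprimitive G Ω := isPreprimitive_of_is_two_pretransitive h2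
  have hfix : fixedPoints A Ω ≠ Set.univ := by
    intro h
    apply hA
    rw [Subgroup.eq_bot_iff_forall]
    intro n hn
    apply FaithfulSMul.eq_of_smul_eq_smul (α := Ω)
    intro x
    have hx : x ∈ fixedPoints A Ω := by rw [h]; trivial
    rw [one_smul]
    exact hx ⟨n, hn⟩
  have htr : IsPretransitive A Ω := IsQuasiPreprimitive.isPretransitive_of_normal hfix
  have htr' : ∀ x y : Ω, ∃ r ∈ A, r • x = y := by
    intro x y
    obtain ⟨m, hm⟩ := MulAction.exists_smul_eq A x y
    exact ⟨m, m.2, hm⟩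
  refine ⟨A, inferInstance, htr', ?_⟩
  intro x r hr hrx
  apply FaithfulSMul.eq_of_smul_eq_smul (α := Ω)
  intro y
  obtain ⟨a, ha, rfl⟩ := htr' x y
  rw [one_smul, ← mul_smul, hc r hr a ha, mul_smul, hrx]

theorem exists_abelian_normal (n : ℕ) : ∀ (N : Subgroup G) [N.Normal], Nat.card N = n → N ≠ ⊥ → Group.IsSolvable N →
    ∃ A : Subgroup G, A.Normal ∧ A ≠ ⊥ ∧ ∀ x ∈ A, ∀ y ∈ A, x * y = y * x := by
  induction n using Nat.strong_induction_on with
  | _ n ih =>
  intro N _ hn hN hs
  by_cases hc : ⁅N, N⁆ = ⊥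
  · refine ⟨N, inferInstance, hN, ?_⟩
    intro x hx y hy
    rw [Subgroup.commutator_eq_bot_iff_le_centralizer] at hc
    exact (Subgroup.mem_centralizer_iff.1 (hc hx) y hy).symm
  · have hle : ⁅N, N⁆ ≤ N := Subgroup.commutator_le_right N N
    have hlt : ⁅N, N⁆ < N := by
      refine lt_of_le_of_ne hle ?_
      intro h
      have hnt : Nontrivial N := (Subgroup.nontrivial_iff_ne_bot N).2 hN
      have h1 := Group.IsSolvable.commutator_lt_top_of_nontrivial N
      have h3 : commutator N = ⊤ := by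
        rw [eq_top_iff]
        intro x _
        have h5 : (⁅N, N⁆ : Subgroup G) = (commutator N).map N.subtype := by
          rw [commutator_def, Subgroup.map_commutator, ← MonoidHom.range_eq_map, Subgroup.range_subtype]
        have h6 : (x : G) ∈ (commutator N).map N.subtype := by
          rw [← h5, h]
          exact x.2
        obtain ⟨y, hy, hxy⟩ := Subgroup.mem_map.1 h6
        have : y = x := Subtype.ext hxy
        rwa [← this]
      exact h1.ne h3
    have hcard : Nat.card (⁅N, N⁆ : Subgroup G) < n := by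
      rw [← hn]
      have := Set.ncard_lt_ncard (show ((⁅N, N⁆ : Subgroup G) : Set G) ⊂ N from hlt) (Set.toFinite _)
      rw [← Nat.card_coe_set_eq, ← Nat.card_coe_set_eq] at this
      exact this
    have hsol : Group.IsSolvable (⁅N, N⁆ : Subgroup G) :=
      Group.isSolvable_of_isSolvable_injective (Subgroup.inclusion_injective hle)
    exact ih _ hcard _ rfl hc hsol

/-- Feit-Thompson: a non-trivial normal subgroup of odd order yields a regular normal subgroup -/
theorem hasReg_of_odd (h2 : IsMultiplyPretransitive G Ω 2) (N : Subgroup G) [N.Normal] (hN : N ≠ ⊥)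
    (hodd : Odd (Nat.card N)) : HasReg G Ω := by
  obtain ⟨A, hA1, hA2, hA3⟩ := exists_abelian_normal _ N rfl hN (H29.OddFinal.odd_order hodd)
  exact hasReg_of_comm h2 A hA2 hA3

end

section
variable {G : Type u} {Ω : Type v} [Group G] [Finite G] [Fintype Ω] [MulAction G Ω] [FaithfulSMul G Ω]
  {i : ℕ} {t : G} (H : Hyp G Ω i t)
include H

/-- if some non-identity element fixes three points, and `i ≤ 1`, then there is a regular normal subgroup -/
theorem Hyp.reg_of_three (hi : i ≤ 1) {x : G} (hx1 : x ≠ 1) {a b c : Ω} (hab : a ≠ b) (hbc : b ≠ c) (hac : a ≠ c)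
    (ha : x • a = a) (hb : x • b = b) (hc : x • c = c) : HasReg G Ω := by
  have hiso := fun (s r : G) (hs : s * s = 1) (hs1 : s ≠ 1) (hr : r * r = 1) (hr1 : r ≠ 1) (hsr : s * r = r * s) =>
    H.comm_eq hi hx1 hab hbc hac ha hb hc hs hs1 hr hr1 hsr
  have hi1 := H.one_of_three hi hx1 hab hbc hac ha hb hc
  -- a Sylow subgroup containing `t`
  have hpz : IsPGroup 2 (Subgroup.zpowers t) := IsPGroup.of_card (n := 1) (by rw [Nat.card_zpowers, H.ord, pow_one])
  obtain ⟨P, hP⟩ := hpz.exists_le_sylow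
  have htP : t ∈ P := hP (Subgroup.mem_zpowers t)
  -- `t` is central in `P`
  have hPnt : Nontrivial P := ⟨⟨t, htP⟩, 1, fun h => H.ne_one (congrArg Subtype.val h)⟩
  have hcnt : Nontrivial (Subgroup.center P) := P.isPGroup'.center_nontrivial
  have hcp : IsPGroup 2 (Subgroup.center P) := P.isPGroup'.to_subgroup _
  obtain ⟨z, hz⟩ := exists_prime_orderOf_dvd_card' (G := Subgroup.center P) 2 (by
    obtain ⟨k, hk⟩ := IsPGroup.iff_card.1 hcp
    have h1 : 1 < Nat.card (Subgroup.center P) := Finite.one_lt_card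
    rw [hk] at h1 ⊢
    have : k ≠ 0 := by
      rintro rfl
      simp at h1
    exact dvd_pow_self 2 this)
  have hzz : ((z : P) : G) * ((z : P) : G) = 1 := by
    have h1 : z * z = 1 := by
      have h0 := pow_orderOf_eq_one z
      rwa [hz, pow_two] at h0
    exact congrArg (fun z : Subgroup.center P => ((z : P) : G)) h1
  have hz1 : ((z : P) : G) ≠ 1 := by
    intro h
    have h1 : z = 1 := Subtype.ext (Subtype.ext h)
    rw [h1, orderOf_one] at hz
    norm_num at hz
  have hzc : ∀ y ∈ P, y * ((z : P) : G) = ((z : P) : G) * y := fun y hy =>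
    congrArg Subtype.val (Subgroup.mem_center_iff.1 z.2 ⟨y, hy⟩)
  have hinvP : ∀ y ∈ P, y * y = 1 → y ≠ 1 → y = ((z : P) : G) := fun y hy hyy hy1 =>
    hiso y _ hyy hy1 hzz hz1 (hzc y hy)
  have htz := hinvP t htP H.mul_self H.ne_one
  obtain ⟨N, hN, hNodd, hNt⟩ := Cfsg.Agent.S0215.result P t H.ord htP (fun g hg => by
    rw [hinvP _ hg (conj_sq H.mul_self) (conj_ne H.ne_one), htz])
  have hNb : N ≠ ⊥ := by
    intro h
    -- `t` would be central
    have hcent : ∀ g : G, t * g = g * t := by
      intro g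
      have h1 := hNt g
      rw [h, Subgroup.mem_bot] at h1
      calc t * g = (t * g * t⁻¹ * g⁻¹) * (g * t) := by group
        _ = g * t := by rw [h1, one_mul]
    have h1 := H.card_fix
    rw [hi1, Nat.card_eq_one_iff_unique] at h1
    obtain ⟨hsub, ⟨y⟩⟩ := h1
    obtain ⟨y', hyy'⟩ : ∃ y', y.1 ≠ y' := by
      by_cases h : y.1 = a
      · exact ⟨b, h ▸ hab⟩
      · exact ⟨a, h⟩
    obtain ⟨g, hg, -⟩ := H.two_trans hyy' hyy'.symm
    have h3 : t • g • y.1 = g • y.1 := by rw [← mul_smul, hcent, mul_smul, y.2]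
    have h4 := congrArg Subtype.val (Subsingleton.elim (⟨g • y.1, h3⟩ : {x : Ω // t • x = x}) y)
    exact hyy' (h4.symm.trans hg)
  exact hasReg_of_odd H.two N hNb hNodd

/-- the classification -/
theorem Hyp.classify :
    (∃ (F : Type) (_ : Field F) (_ : Fintype F), Nonempty (G ≃* Matrix.ProjectiveSpecialLinearGroup (Fin 2) F)) ∨
    Cfsg.Lie.IsoSuzuki G ∨ HasReg G Ω := by
  classical
  by_cases hreg : HasReg G Ω
  · exact Or.inr (Or.inr hreg)
  obtain ⟨x0, hx0⟩ := H.exists_move
  -- no non-identity element fixes three points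
  have hthree : ∀ g : G, ∀ a b c : Ω, a ≠ b → b ≠ c → a ≠ c → g • a = a → g • b = b → g • c = c → g = 1 := by
    intro g a b c hab hbc hac ha hb hc
    by_contra hg
    rcases Nat.lt_or_ge i 2 with hi | hi
    · exact hreg (H.reg_of_three (by omega) hg hab hbc hac ha hb hc)
    · exact hg (H.three_of_two hi hab hbc hac ha hb hc)
  -- some non-identity element fixes two points
  have htwo : ∃ g : G, g ≠ 1 ∧ ∃ a b : Ω, a ≠ b ∧ g • a = a ∧ g • b = b := by
    by_contra hcon
    push Not at hcon
    have hne : Nonempty Ω := ⟨x0⟩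
    have htr : IsPretransitive G Ω := by
      refine ⟨fun x y => ?_⟩
      by_cases hxy : x = y
      · exact ⟨1, by rw [one_smul, hxy]⟩
      · obtain ⟨g, hg, -⟩ := H.two_trans hxy (Ne.symm hxy)
        exact ⟨g, hg⟩
    obtain ⟨M, hM, hMt, hMr⟩ := exists_regular (A := G) (X := Ω) htr (fun g hg x y hx hy => by
      by_contra hxy
      exact hcon g hg x y hxy hx hy)
    apply hreg
    refine ⟨M, ⟨fun n hn g => ?_⟩, fun x y => exists_of_regular hMt x y,
      fun x r hr hrx => eq_one_of_regular hMr hr hrx⟩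
    rw [hM] at hn ⊢
    rcases hn with h | h
    · left
      rw [h]; simp
    · right
      intro x hx
      rw [mul_smul, mul_smul] at hx
      exact h (g⁻¹ • x) (inv_smul_eq_iff.2 hx.symm).symm
  have hZ : IsZassenhausGroup G Ω := by
    refine ⟨inferInstance, H.two, hthree, htwo, ?_⟩
    intro N hN hNt
    by_contra hcon
    push Not at hcon
    exact hreg ⟨N, hN, fun x y => exists_of_regular hNt x y, fun x r hr hrx => eq_one_of_regular hcon hr hrx⟩
  -- `G` is simple
  have hsimple : IsSimpleGroup G := by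
    have hnt : Nontrivial G := ⟨t, 1, H.ne_one⟩
    refine ⟨fun N hN => ?_⟩
    by_cases hNb : N = ⊥
    · exact Or.inl hNb
    right
    have hZN := of_normal hZ N hNb
    have hne : x0 ≠ t • x0 := Ne.symm hx0
    obtain ⟨s, hs⟩ := H16.Zass.exists_involution hZN hne
    obtain ⟨x, hxs⟩ := H16.Zass.exists_move hZN (ne_one_of_orderOf hs)
    obtain ⟨k, hk1, hk2⟩ := H16.Zass.exists_conj_swap hZN hs hxs hne
    set w : N := k * s * k⁻¹ with hw
    have hw1 : (w : G) • x0 = t • x0 := hk1
    have hw2 : (w : G) • (t • x0) = x0 := hk2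
    have hE : E2 G x0 (t • x0) ≤ N := by
      intro d hd
      obtain ⟨hd1, hd2⟩ := mem_E2.1 hd
      have e1 := H.key.2 _ _ hne (w * d) (by rw [mul_smul, hd1, hw1]) (by rw [mul_smul, hd2, hw2])
      have e2 := H.key.2 _ _ hne w hw1 hw2
      obtain ⟨c, hc⟩ := isConj_iff.1 (e2.symm.trans e1)
      have e3 : (w : G) * d ∈ N := by
        rw [← hc]
        exact hN.conj_mem _ w.2 c
      have e4 : d = (w : G)⁻¹ * (w * d) := by group
      rw [e4]
      exact N.mul_mem (N.inv_mem w.2) e3
    rw [eq_top_iff]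
    intro g _
    have hgpq : g • x0 ≠ g • (t • x0) := fun h => hne (smul_left_cancel g h)
    obtain ⟨n, hn1, hn2⟩ := H16.Zass.two_trans hZN hne hgpq
    have h1 : (n : G)⁻¹ * g ∈ E2 G x0 (t • x0) := by
      have hn1' : (n : G) • x0 = g • x0 := hn1
      have hn2' : (n : G) • (t • x0) = g • (t • x0) := hn2
      rw [mem_E2, mul_smul, mul_smul, ← hn1', ← hn2', inv_smul_smul, inv_smul_smul]
      exact ⟨rfl, rfl⟩
    have h2 : g = n * ((n : G)⁻¹ * g) := by group
    rw [h2]
    exact N.mul_mem n.2 (hE h1)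
  rcases H8.SzRec.classify hZ with ⟨F, iF, iFf, -, hiso⟩ | ⟨hS, -⟩
  · exact Or.inl ⟨F, iF, iFf, hiso⟩
  · exact Or.inr (Or.inl hS)

end

end H24.ConstFix
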