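/-
H24: the small Ree groups: lower bound for the degree of a complex representation.
-/
import Cfsg.Agent.Lib.H24.ReeFour2
import Cfsg.Agent.Lib.H24.ReeTor3
import Cfsg.Agent.Lib.H44.LSVec2
import Cfsg.Agent.Lib.H44.LSIrr
set_option autoImplicit false
set_option linter.unusedSimpArgs false
set_option linter.unusedVariables false
set_option linter.unusedSectionVars false
namespace H24.ReeRep

open Cfsg.Lie Matrix H24.ReeBlk H24.ReeAd H24.ReeAl H24.ReeGood H24.ReePts H24.ReeGrp
open H24.ReeAct H24.ReeStr H24.ReeInt H24.ReeUni H24.ReeSub H24.ReeSyl H24.ReeSyl3 H24.ReeCen H24.ReeSyl2 H24.ReeInvo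
open H24.ReeFour H24.ReeTor H44.LSWeights H44.LSVec
open scoped MatrixGroups Pointwise

section general
variable {C : Type*} [Field C] {V : Type*} [AddCommGroup V] [Module C V] {A : Type*} [CommGroup A]

theorem proj_comm [Fintype A] (τ : A →* Module.End C V) (χ : A →* Cˣ) (a : A) (v : V) :
    proj τ χ (τ a v) = (χ a : C) • proj τ χ v := by
  have h1 : proj τ χ (τ a v) = τ a (proj τ χ v) := by
    simp only [proj, LinearMap.smul_apply, LinearMap.sum_apply, map_smul, map_sum]
    congr 1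
    refine Finset.sum_congr rfl (fun b _ => ?_)
    congr 1
    rw [← Module.End.mul_apply, ← Module.End.mul_apply, ← map_mul, ← map_mul, mul_comm]
  rw [h1]
  exact proj_mem τ χ v a

/-- if the number of weights in `S` equals the dimension, an operator killed by the projections is zero -/
theorem ker_of_card_eq [Fintype A] [FiniteDimensional C V] (hA : (Fintype.card A : C) ≠ 0) (τ : A →* Module.End C V)
    (S : Finset (A →* Cˣ)) (hS : ∀ χ ∈ S, wt τ χ ≠ ⊥) (hc : Module.finrank C V = S.card) (T : Module.End C V)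
    (hT : ∀ χ ∈ S, ∀ v, proj τ χ (T v) = 0) : T = 0 := by
  classical
  let f : V →ₗ[C] (∀ χ : S, wt τ χ.1) :=
    LinearMap.pi (fun χ => LinearMap.codRestrict (wt τ χ.1) (proj τ χ.1) (proj_mem τ χ.1))
  have hf : Function.Surjective f := by
    intro w
    refine ⟨∑ χ : S, (w χ : V), ?_⟩
    ext χ
    change proj τ χ.1 (∑ χ : S, (w χ : V)) = w χ
    rw [map_sum, Finset.sum_eq_single χ]
    · exact proj_of_mem hA τ χ.1 (w χ).2
    · intro χ' _ hne
      exact proj_of_mem_ne τ (fun h => hne (Subtype.ext h.symm)) (w χ').2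
    · intro h; exact absurd (Finset.mem_univ _) h
  have h1 := LinearMap.finrank_le_finrank_of_surjective hf
  have h2 : S.card ≤ Module.finrank C (∀ χ : S, wt τ χ.1) := by
    rw [Module.finrank_pi_fintype]
    calc S.card = ∑ χ : S, 1 := by rw [Finset.sum_const, smul_eq_mul, mul_one, Finset.card_univ, Fintype.card_coe]
      _ ≤ _ := Finset.sum_le_sum (fun χ _ => one_le_finrank _ (hS χ.1 χ.2))
  have h3 : Module.finrank C V = Module.finrank C (∀ χ : S, wt τ χ.1) := le_antisymm (hc ▸ h2) h1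
  have hinj : Function.Injective f := (LinearMap.injective_iff_surjective_of_finrank_eq_finrank h3).2 hf
  ext v
  apply hinj
  rw [LinearMap.zero_apply, map_zero]
  ext χ
  exact hT χ.1 χ.2 v

end general

variable {K : Type*} [Field K] {e : ℕ} [RF K e]

/-- the abelian subgroup `U₁` -/
noncomputable def jU (K : Type*) [Field K] (e : ℕ) [RF K e] [Finite K] : Multiplicative (Fin 2 → K) →* G1 K e where
  toFun a := uG 0 (Multiplicative.toAdd a 0) (Multiplicative.toAdd a 1)
  map_one' := by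
    rw [toAdd_one, Pi.zero_apply, Pi.zero_apply, uG_zero]
  map_mul' a b := by
    rw [uG_mul, toAdd_mul, Pi.add_apply, Pi.add_apply]
    congr 1 <;> simp

theorem jU_apply [Finite K] (a : Fin 2 → K) : jU K e (Multiplicative.ofAdd a) = uG 0 (a 0) (a 1) := rfl

theorem ph_surj [Finite K] (x : K) : ∃ y : K, ph K e y = x := ⟨th K e x, ph_th x⟩

theorem ut_comm [Finite K] (t u v : K) : (uG t 0 0 * uG 0 u v : G1 K e) = uG 0 u (v + t * u) * uG t 0 0 := by
  rw [uG_mul, uG_mul]
  congr 1
  · simp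
  · simp
  · simp

variable {V : Type*} [AddCommGroup V] [Module ℂ V] [FiniteDimensional ℂ V]

local notation "iv" => (H24.ReeCen.inv : G1 K e)

theorem card_filter [Fintype K] [DecidableEq K] :
    ((Finset.univ : Finset (Fin 2 → K)).filter (fun f => f 1 ≠ 0)).card = Fintype.card K * (Fintype.card K - 1) := by
  classical
  have h1 : ((Finset.univ : Finset (Fin 2 → K)).filter (fun f => f 1 ≠ 0)) =
      ((Finset.univ : Finset K) ×ˢ ((Finset.univ : Finset K).erase 0)).image (fun p : K × K => ![p.1, p.2]) := by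
    ext f
    simp only [Finset.mem_filter, Finset.mem_univ, true_and, Finset.mem_image, Finset.mem_product, Finset.mem_erase, and_true,
      Prod.exists]
    constructor
    · intro h
      exact ⟨f 0, f 1, h, by ext i; fin_cases i <;> rfl⟩
    · rintro ⟨a, b, h, rfl⟩
      exact h
  rw [h1, Finset.card_image_of_injective, Finset.card_product, Finset.card_erase_of_mem (Finset.mem_univ _), Finset.card_univ]
  rintro ⟨a, b⟩ ⟨a', b'⟩ h
  simp only at h
  have h0 := congrFun h 0
  have h1 := congrFun h 1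
  simp at h0 h1
  rw [h0, h1]

theorem lower1 [Finite K] (τ : G1 K e →* Module.End ℂ V) {v0 : K} (hv0 : τ (uG 0 0 v0) ≠ 1) :
    Nat.card K * (Nat.card K - 1) ≤ Module.finrank ℂ V ∧
      (Module.finrank ℂ V = Nat.card K * (Nat.card K - 1) → ∀ [Fintype K], ∑ z : K, τ (uG 0 0 z) = 0) := by
  classical
  haveI : Fintype K := Fintype.ofFinite K
  rw [Nat.card_eq_fintype_card]
  have hp : (Fintype.card K : ℂ) ≠ 0 := by
    rw [Nat.cast_ne_zero]; exact Fintype.card_ne_zero
  have hcardA : (Nat.card (Multiplicative (Fin 2 → K)) : ℂ) ≠ 0 := by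
    rw [Nat.card_eq_fintype_card, Fintype.card_multiplicative, Fintype.card_fun, Nat.cast_pow]
    exact pow_ne_zero _ hp
  obtain ⟨hr, _⟩ := H44.LSSpEven.roots (K := ℂ) (l := Fin 2) (RingHom.id K) hp
  obtain ⟨ψ, hψ⟩ := CommGroup.exists_apply_ne_one_of_hasEnoughRootsOfUnity (Multiplicative K) ℂ
    (a := Multiplicative.ofAdd (1 : K)) (by
      intro h
      exact one_ne_zero (Multiplicative.ofAdd.injective (h.trans ofAdd_zero.symm)))
  obtain ⟨hsurj, henough⟩ := H44.LSSpEven.vchi_surj (ι := Fin 2) hp ψ hψ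
  have hb : (τ.comp (jU K e)) (Multiplicative.ofAdd ![0, v0]) ≠ 1 := by
    rw [MonoidHom.comp_apply, jU_apply]
    exact hv0
  obtain ⟨χ0, hχ0, hχ0b⟩ := exists_weight hcardA (τ.comp (jU K e)) _ hb
  obtain ⟨f0, hf0⟩ := hsurj χ0
  simp only at hf0
  have hf0ne : f0 1 ≠ 0 := by
    intro h
    apply hχ0b
    rw [← hf0, vchi_apply, toAdd_ofAdd, dotProduct, Fin.sum_univ_two, h]
    simp
  have hall : ∀ f : Fin 2 → K, f 1 ≠ 0 → wt (τ.comp (jU K e)) (vchi ψ f) ≠ ⊥ := by
    intro f hf
    obtain ⟨l, hl⟩ := ph_surj (K := K) (e := e) (f0 1 / f 1)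
    have hl0 : l ≠ 0 := by
      rintro rfl
      rw [map_zero] at hl
      exact div_ne_zero hf0ne hf hl.symm
    have hphl : ph K e l ≠ 0 := by rw [hl]; exact div_ne_zero hf0ne hf
    set w : K := l ^ 3 / ph K e l with hw
    have hw0 : w ≠ 0 := div_ne_zero (pow_ne_zero _ hl0) hphl
    set t : K := (f0 0 / w - f 0) / f 1 with ht
    set L : G1 K e := uG t 0 0 * hT (Units.mk0 l hl0) with hL
    have hLinj : Function.Injective (τ L : V →ₗ[ℂ] V) := by
      intro v w h
      have h1 : τ L⁻¹ (τ L v) = τ L⁻¹ (τ L w) := by rw [h]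
      rw [← Module.End.mul_apply, ← Module.End.mul_apply, ← map_mul, inv_mul_cancel, map_one] at h1
      exact h1
    have hconj : ∀ a : Fin 2 → K, L * jU K e (Multiplicative.ofAdd a) =
        jU K e (Multiplicative.ofAdd ![w * a 0, ph K e l * a 1 + t * (w * a 0)]) * L := by
      intro a
      rw [jU_apply, jU_apply, hL]
      have h1 := hT_conj (K := K) (e := e) (Units.mk0 l hl0) 0 (a 0) (a 1)
      rw [Units.val_mk0, mul_zero] at h1
      have h2 : (hT (Units.mk0 l hl0) * uG 0 (a 0) (a 1) : G1 K e) = uG 0 (w * a 0) (ph K e l * a 1) * hT (Units.mk0 l hl0) := by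
        rw [← h1]; group
      rw [mul_assoc, h2, ← mul_assoc, ut_comm, mul_assoc]
      rfl
    refine wt_map_ne_bot (τ.comp (jU K e)) (τ L) hLinj
      (fun a => Multiplicative.ofAdd ![w * (Multiplicative.toAdd a) 0, ph K e l * (Multiplicative.toAdd a) 1 + t * (w * (Multiplicative.toAdd a) 0)])
      ?_ ?_ (vchi ψ f0) _ ?_ (by rw [hf0]; exact hχ0)
    · intro a v
      rw [MonoidHom.comp_apply, MonoidHom.comp_apply, ← Module.End.mul_apply,
        ← Module.End.mul_apply, ← map_mul, ← map_mul]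
      have := hconj (Multiplicative.toAdd a)
      rw [ofAdd_toAdd] at this
      rw [this]
    · intro a
      refine ⟨Multiplicative.ofAdd ![w⁻¹ * Multiplicative.toAdd a 0, (ph K e l)⁻¹ * (Multiplicative.toAdd a 1 - t * Multiplicative.toAdd a 0)], ?_⟩
      apply Multiplicative.toAdd.injective
      ext i
      fin_cases i
      · simp [hw0]
      · simp [hw0, hphl]
    · intro a
      rw [vchi_apply, vchi_apply, toAdd_ofAdd]
      congr 2
      rw [dotProduct, dotProduct, Fin.sum_univ_two, Fin.sum_univ_two]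
      simp only [Matrix.cons_val_zero, Matrix.cons_val_one]
      rw [hl, ht]
      field_simp
      ring
  set S : Finset (Multiplicative (Fin 2 → K) →* ℂˣ) := ((Finset.univ : Finset (Fin 2 → K)).filter (fun f => f 1 ≠ 0)).image (vchi ψ) with hS
  have hScard : S.card = Fintype.card K * (Fintype.card K - 1) := by
    rw [hS, Finset.card_image_of_injective _ (fun f g h => vchi_inj ψ hψ h), card_filter]
  have hSne : ∀ χ ∈ S, wt (τ.comp (jU K e)) χ ≠ ⊥ := by
    intro χ hχ
    rw [hS, Finset.mem_image] at hχ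
    obtain ⟨f, hf, rfl⟩ := hχ
    exact hall f (Finset.mem_filter.1 hf).2
  refine ⟨?_, ?_⟩
  · have h3 := card_le (K := ℂ) hcardA (τ.comp (jU K e)) S 1 (fun χ hχ => one_le_finrank _ (hSne χ hχ))
    rw [mul_one, hScard] at h3
    exact h3
  · intro hc inst
    have e1 : inst = this := Subsingleton.elim _ _
    subst e1
    rw [Nat.card_eq_fintype_card] at hcardA
    apply ker_of_card_eq hcardA (τ.comp (jU K e)) S hSne (by rw [hc, hScard])
    intro χ hχ v
    rw [hS, Finset.mem_image] at hχ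
    obtain ⟨f, hf, rfl⟩ := hχ
    have hf1 := (Finset.mem_filter.1 hf).2
    rw [LinearMap.sum_apply, map_sum]
    have h4 : ∀ z : K, proj (τ.comp (jU K e)) (vchi ψ f) (τ (uG 0 0 z) v) =
        ((ψ (Multiplicative.ofAdd (f 1 * z)) : ℂˣ) : ℂ) • proj (τ.comp (jU K e)) (vchi ψ f) v := by
      intro z
      have h5 := proj_comm (τ.comp (jU K e)) (vchi ψ f) (Multiplicative.ofAdd ![0, z]) v
      rw [MonoidHom.comp_apply, jU_apply, vchi_apply, toAdd_ofAdd, dotProduct, Fin.sum_univ_two] at h5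
      simpa using h5
    simp only [h4]
    rw [← Finset.sum_smul]
    have h6 : ∑ z : K, ((ψ (Multiplicative.ofAdd (f 1 * z)) : ℂˣ) : ℂ) = 0 := by
      have h7 : ∑ z : K, ((ψ (Multiplicative.ofAdd (f 1 * z)) : ℂˣ) : ℂ) = ∑ z : K, ((ψ (Multiplicative.ofAdd z) : ℂˣ) : ℂ) :=
        Equiv.sum_comp (Equiv.mulLeft₀ (f 1) hf1) (fun z => ((ψ (Multiplicative.ofAdd z) : ℂˣ) : ℂ))
      rw [h7]
      have h8 := sum_char ψ (by
        intro h9; apply hψ; rw [h9]; rfl)
      rw [← h8]
      exact (Equiv.sum_comp (Multiplicative.ofAdd (α := K)) (fun a => ((ψ a : ℂˣ) : ℂ)))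
    rw [h6, zero_smul]

/-- the involution has trace zero if the long root group has no fixed vectors -/
theorem trace_iv [Finite K] (τ : G1 K e →* Module.End ℂ V) [Fintype K] (h : ∑ z : K, τ (uG 0 0 z) = 0) :
    LinearMap.trace ℂ V (τ iv) = 0 := by
  have h1 : ∑ z : K, LinearMap.trace ℂ V (τ (uG 0 0 z * iv)) = 0 := by
    have h2 : (∑ z : K, τ (uG 0 0 z)) * τ iv = 0 := by rw [h, zero_mul]
    rw [Finset.sum_mul] at h2
    have h3 := congrArg (LinearMap.trace ℂ V) h2
    rw [map_sum, map_zero] at h3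
    rw [← h3]
    refine Finset.sum_congr rfl (fun z _ => ?_)
    rw [map_mul]
  have h2 : ∀ z : K, LinearMap.trace ℂ V (τ (uG 0 0 z * iv)) = LinearMap.trace ℂ V (τ iv) := by
    intro z
    have h3 : (uG 0 0 z * iv : G1 K e) = uG 0 0 (-z) * iv * (uG 0 0 (-z))⁻¹ := by
      rw [eq_mul_inv_iff_mul_eq]
      have h4 : (iv * uG 0 0 (-z) * iv⁻¹ : G1 K e) = uG 0 0 z := by
        have := hT_conj (K := K) (e := e) (-1) 0 0 (-z)
        rw [show (hT (-1) : G1 K e) = iv from rfl] at this
        rw [this]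
        congr 1 <;> simp
      have h5 : (iv * uG 0 0 (-z) : G1 K e) = uG 0 0 z * iv := by rw [← h4]; group
      rw [mul_assoc, h5, ← mul_assoc, uG_mul]
      congr 2 <;> simp
      have h3' := three0 (K := K) (e := e)
      linear_combination z * h3'
    rw [h3, map_mul, LinearMap.trace_mul_comm, ← map_mul, ← mul_assoc, inv_mul_cancel, one_mul]
  rw [Finset.sum_congr rfl (fun z _ => h2 z), Finset.sum_const, nsmul_eq_mul, mul_eq_zero] at h1
  rcases h1 with h1 | h1
  · exfalso
    rw [Finset.card_univ, Nat.cast_eq_zero] at h1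
    exact Fintype.card_ne_zero h1
  · exact h1

theorem eight_dvd [Finite K] {m : ℕ} (hn : Nat.card K = 3 ^ (2 * m + 1)) (τ : G1 K e →* Module.End ℂ V)
    (h : LinearMap.trace ℂ V (τ iv) = 0) : 8 ∣ Module.finrank ℂ V := by
  classical
  haveI : Fintype (E0 K e) := Fintype.ofFinite _
  have hall : ∀ x : G1 K e, x * x = 1 → x ≠ 1 → LinearMap.trace ℂ V (τ x) = 0 := by
    intro x hx hx1
    obtain ⟨g, hg⟩ := invo_conj hn hx hx1
    rw [← h, ← hg, map_mul τ, map_mul τ, LinearMap.trace_mul_comm, ← map_mul τ, ← map_mul τ, ← mul_assoc, inv_mul_cancel, one_mul]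
  have hc := card_E0 (e := e) hn
  have hcard : (Fintype.card (E0 K e) : ℂ) ≠ 0 := by
    rw [Nat.cast_ne_zero]; exact Fintype.card_ne_zero
  letI : Invertible (Fintype.card (E0 K e) : ℂ) := invertibleOfNonzero hcard
  set ρ : Representation ℂ (E0 K e) V := τ.comp (E0 K e).subtype with hρ
  have h1 := (Representation.isProj_averageMap ρ).trace
  have h2 : LinearMap.trace ℂ V ρ.averageMap = (8 : ℂ)⁻¹ * Module.finrank ℂ V := by
    have h3 : ρ.averageMap = (8 : ℂ)⁻¹ • ∑ x : E0 K e, ρ x := by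
      rw [Representation.averageMap, GroupAlgebra.average, map_smul, map_sum]
      congr 1
      · rw [invOf_eq_inv, ← Nat.card_eq_fintype_card, hc]; norm_num
      · refine Finset.sum_congr rfl (fun x _ => ?_)
        rw [Representation.asAlgebraHom_of]
    rw [h3, map_smul, map_sum, smul_eq_mul]
    congr 1
    rw [Finset.sum_eq_single (1 : E0 K e)]
    · rw [map_one, LinearMap.trace_one]
    · intro x _ hx
      exact hall _ (sq_E0 x.2) (fun h => hx (Subtype.ext h))
    · intro h; exact absurd (Finset.mem_univ _) h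
  rw [h2] at h1
  refine ⟨Module.finrank ℂ ρ.invariants, ?_⟩
  have h4 : (Module.finrank ℂ V : ℂ) = 8 * (Module.finrank ℂ ρ.invariants : ℂ) := by
    rw [← h1]; ring
  exact_mod_cast h4

theorem lower [Finite K] {m : ℕ} (hn : Nat.card K = 3 ^ (2 * m + 1)) (τ : G1 K e →* Module.End ℂ V) {v0 : K}
    (hv0 : τ (uG 0 0 v0) ≠ 1) : Nat.card K ^ 2 - Nat.card K + 1 ≤ Module.finrank ℂ V := by
  obtain ⟨h1, h2⟩ := lower1 τ hv0
  have h3 : Nat.card K ^ 2 - Nat.card K = Nat.card K * (Nat.card K - 1) := by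
    rw [pow_two, Nat.mul_sub, mul_one]
  rw [h3]
  rcases Nat.lt_or_ge (Nat.card K * (Nat.card K - 1)) (Module.finrank ℂ V) with h4 | h4
  · exact h4
  · exfalso
    have h5 : Module.finrank ℂ V = Nat.card K * (Nat.card K - 1) := le_antisymm h4 h1
    haveI : Fintype K := Fintype.ofFinite K
    have h6 := eight_dvd hn τ (trace_iv τ (h2 h5))
    rw [h5] at h6
    obtain ⟨r, hr1, hr2⟩ := exists_s hn
    rw [hr2, show 8 * r + 3 - 1 = 8 * r + 2 by omega] at h6
    have h7 : (8 * r + 3) * (8 * r + 2) = 8 * (8 * r ^ 2 + 5 * r) + 6 := by ring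
    rw [h7] at h6
    omega

end H24.ReeRep
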