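import Mathlib
import Cfsg.Agent.Lib.H40.SL2Tori
import Cfsg.Agent.Lib.H43.GL2Count

/-!
The group `V ⋊ ({±1} × L₂(q))` with `V` a sum of copies of the tensor product of the natural module of `SL₂(q)` with its Frobenius twist,
`q = 3 ^ (2m+1)`: its element orders.
-/

set_option autoImplicit false

namespace H24.ReeSpec

open Matrix

section sdp

variable {W D : Type*} [CommGroup W] [Group D] {φ : D →* MulAut W}

theorem pow_right (x : W ⋊[φ] D) (n : ℕ) : (x ^ n).right = x.right ^ n := map_pow SemidirectProduct.rightHom x n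

theorem eq_inl (x : W ⋊[φ] D) (h : x.right = 1) : x = SemidirectProduct.inl x.left := by
  ext <;> simp [h]

/-- the order of an element divides three times the order of its image if the kernel has exponent `3` -/
theorem dvd_three (h3 : ∀ w : W, w ^ 3 = 1) (x : W ⋊[φ] D) {n : ℕ} (hn : x.right ^ n = 1) : orderOf x ∣ 3 * n := by
  apply orderOf_dvd_of_pow_eq_one
  rw [mul_comm, pow_mul, eq_inl (x ^ n) (by rw [pow_right, hn]), ← map_pow, h3, map_one]

/-- an element acting without fixed points has the same order as its image -/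
theorem dvd_of_free (x : W ⋊[φ] D) (hf : ∀ w : W, φ x.right w = w → w = 1) {n : ℕ} (hn : x.right ^ n = 1) : orderOf x ∣ n := by
  apply orderOf_dvd_of_pow_eq_one
  have h1 : x ^ n = SemidirectProduct.inl (x ^ n).left := eq_inl (x ^ n) (by rw [pow_right, hn])
  have h2 : x * x ^ n = x ^ n * x := (pow_mul_comm' x n).symm
  have h3 := congrArg SemidirectProduct.left h2
  rw [SemidirectProduct.mul_left, SemidirectProduct.mul_left, pow_right, hn, map_one, MulAut.one_apply, mul_comm (x ^ n).left] at h3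
  rw [h1, hf _ (mul_left_cancel h3), map_one]

/-- if the cube of the image inverts the kernel then the sixth power is trivial -/
theorem dvd_six (x : W ⋊[φ] D) (hi : ∀ w : W, φ (x.right ^ 3) w = w⁻¹) (h6 : x.right ^ 6 = 1) : orderOf x ∣ 6 := by
  apply orderOf_dvd_of_pow_eq_one
  rw [show (6 : ℕ) = 3 + 3 by norm_num, pow_add]
  ext
  · rw [SemidirectProduct.mul_left, pow_right, hi, mul_inv_cancel, SemidirectProduct.one_left]
  · rw [SemidirectProduct.mul_right, pow_right, ← pow_add, h6, SemidirectProduct.one_right]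

end sdp

section act

variable {K : Type*} [Field K] [CharP K 3]

/-- the Frobenius twist of a matrix of `SL₂` -/
noncomputable abbrev fr : SpecialLinearGroup (Fin 2) K →* SpecialLinearGroup (Fin 2) K :=
  SpecialLinearGroup.map (frobenius K 3)

/-- the action of `{±1} × SL₂(K)` on the two by two matrices -/
noncomputable def act (p : ℤˣ × SpecialLinearGroup (Fin 2) K) (X : Matrix (Fin 2) (Fin 2) K) : Matrix (Fin 2) (Fin 2) K :=
  (((p.1 : ℤˣ) : ℤ) : K) • ((p.2 : Matrix (Fin 2) (Fin 2) K) * X * ((fr p.2 : SpecialLinearGroup (Fin 2) K) : Matrix (Fin 2) (Fin 2) K)ᵀ)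

theorem act_one (X : Matrix (Fin 2) (Fin 2) K) : act (1 : ℤˣ × SpecialLinearGroup (Fin 2) K) X = X := by
  simp only [act, Prod.fst_one, Prod.snd_one, map_one, Matrix.SpecialLinearGroup.coe_one, Units.val_one, Int.cast_one, one_smul, Matrix.one_mul,
    transpose_one, Matrix.mul_one]

theorem act_mul (p q : ℤˣ × SpecialLinearGroup (Fin 2) K) (X : Matrix (Fin 2) (Fin 2) K) : act (p * q) X = act p (act q X) := by
  simp only [act, Prod.fst_mul, Prod.snd_mul, map_mul, Matrix.SpecialLinearGroup.coe_mul, Units.val_mul, Int.cast_mul, transpose_mul,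
    Matrix.mul_smul, Matrix.smul_mul, smul_smul, Matrix.mul_assoc]

theorem act_add (p : ℤˣ × SpecialLinearGroup (Fin 2) K) (X Y : Matrix (Fin 2) (Fin 2) K) : act p (X + Y) = act p X + act p Y := by
  simp only [act, Matrix.mul_add, Matrix.add_mul, smul_add]

variable (K) (ι : Type)

/-- the kernel of the extension -/
abbrev WW : Type _ := Multiplicative (ι → Matrix (Fin 2) (Fin 2) K)

/-- the automorphism of the kernel given by an element of `{±1} × SL₂(K)` -/
noncomputable def rho : ℤˣ × SpecialLinearGroup (Fin 2) K →* MulAut (WW K ι) where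
  toFun p :=
    { toFun := fun w => Multiplicative.ofAdd (fun i => act p (Multiplicative.toAdd w i))
      invFun := fun w => Multiplicative.ofAdd (fun i => act p⁻¹ (Multiplicative.toAdd w i))
      left_inv := fun w => by
        change Multiplicative.ofAdd (fun i => act p⁻¹ (act p (Multiplicative.toAdd w i))) = w
        simp only [← act_mul, inv_mul_cancel, act_one]; rfl
      right_inv := fun w => by
        change Multiplicative.ofAdd (fun i => act p (act p⁻¹ (Multiplicative.toAdd w i))) = w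
        simp only [← act_mul, mul_inv_cancel, act_one]; rfl
      map_mul' := fun v w => by
        change Multiplicative.ofAdd (fun i => act p (Multiplicative.toAdd v i + Multiplicative.toAdd w i)) =
          Multiplicative.ofAdd ((fun i => act p (Multiplicative.toAdd v i)) + fun i => act p (Multiplicative.toAdd w i))
        congr 1; funext i; exact act_add _ _ _ }
  map_one' := by
    apply MulEquiv.ext
    intro w
    change Multiplicative.ofAdd (fun i => act 1 (Multiplicative.toAdd w i)) = w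
    simp only [act_one]; rfl
  map_mul' p q := by
    apply MulEquiv.ext
    intro w
    change Multiplicative.ofAdd (fun i => act (p * q) (Multiplicative.toAdd w i)) =
      Multiplicative.ofAdd (fun i => act p (act q (Multiplicative.toAdd w i)))
    simp only [act_mul]

theorem rho_apply (p : ℤˣ × SpecialLinearGroup (Fin 2) K) (w : WW K ι) :
    rho K ι p w = Multiplicative.ofAdd (fun i => act p (Multiplicative.toAdd w i)) := rfl

/-- the group -/
abbrev EE : Type _ := WW K ι ⋊[(rho K ι).range.subtype] (rho K ι).range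

variable {K ι}

theorem cube (w : WW K ι) : w ^ 3 = 1 := by
  apply Multiplicative.toAdd.injective
  rw [toAdd_pow, toAdd_one]
  funext i
  ext a b
  have h : ((3 : ℕ) : K) = 0 := CharP.cast_eq_zero K 3
  have : ((3 : ℕ) • (Multiplicative.toAdd w i a b)) = 0 := by rw [nsmul_eq_mul, h, zero_mul]
  exact this

/-- Cayley–Hamilton in `SL₂` -/
theorem sq_eq' (A : SpecialLinearGroup (Fin 2) K) :
    (A : Matrix (Fin 2) (Fin 2) K) * (A : Matrix (Fin 2) (Fin 2) K) = (A : Matrix (Fin 2) (Fin 2) K).trace • (A : Matrix (Fin 2) (Fin 2) K) - 1 := by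
  rw [H43.GL2Basic.sq_eq, A.det_coe, one_smul]

theorem trace_fr (A : SpecialLinearGroup (Fin 2) K) :
    ((fr A : SpecialLinearGroup (Fin 2) K) : Matrix (Fin 2) (Fin 2) K).trace = (A : Matrix (Fin 2) (Fin 2) K).trace ^ 3 := by
  rw [trace_fin_two, trace_fin_two]
  simp only [fr, Matrix.SpecialLinearGroup.map_apply_coe, RingHom.mapMatrix_apply, map_apply]
  rw [← map_add, frobenius_def]

/-- a fixed point gives an equation for the trace -/
theorem fixed (p : ℤˣ × SpecialLinearGroup (Fin 2) K) {X : Matrix (Fin 2) (Fin 2) K} (hX : act p X = X) :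
    (((((p.1 : ℤˣ) : ℤ) : K)) * (p.2 : Matrix (Fin 2) (Fin 2) K).trace ^ 3 - (p.2 : Matrix (Fin 2) (Fin 2) K).trace) • X = 0 := by
  set ε : K := (((p.1 : ℤˣ) : ℤ) : K) with hε
  have he : ε * ε = 1 := by
    rw [hε, ← Int.cast_mul, ← Units.val_mul]
    rcases Int.units_eq_one_or p.1 with h | h <;> rw [h] <;> norm_num
  set A := (p.2 : Matrix (Fin 2) (Fin 2) K) with hA
  set B := ((fr p.2 : SpecialLinearGroup (Fin 2) K) : Matrix (Fin 2) (Fin 2) K)ᵀ with hB
  set t := A.trace with ht
  have h1 : ε • (A * X * B) = X := hX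
  have hA2 : A * A = t • A - 1 := sq_eq' p.2
  have hB2 : B * B = (t ^ 3) • B - 1 := by
    have := congrArg transpose (sq_eq' (fr p.2))
    rw [transpose_mul, transpose_sub, transpose_smul, transpose_one, trace_fr] at this
    exact this
  -- `A X B = ε X`
  have h2 : A * X * B = ε • X := by
    rw [← h1, smul_smul, he, one_smul]; rw [h1]
  -- `A X = ε (t³ X - X B)`
  have h3 : A * X = ε • ((t ^ 3) • X - X * B) := by
    have : A * X * (B * ((t ^ 3) • (1 : Matrix (Fin 2) (Fin 2) K) - B)) = A * X := by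
      rw [Matrix.mul_sub, hB2, Matrix.mul_smul, Matrix.mul_one]
      rw [sub_sub_cancel, Matrix.mul_one]
    rw [← this, ← Matrix.mul_assoc (A * X), h2, Matrix.smul_mul, Matrix.mul_sub, Matrix.mul_smul, Matrix.mul_one]
  have h4 : X * B = ε • (t • X - A * X) := by
    have : (t • (1 : Matrix (Fin 2) (Fin 2) K) - A) * A * (X * B) = X * B := by
      rw [Matrix.sub_mul, hA2, Matrix.smul_mul, Matrix.one_mul, sub_sub_cancel, Matrix.one_mul]
    rw [← this, Matrix.mul_assoc _ A, ← Matrix.mul_assoc A, h2, Matrix.mul_smul, Matrix.sub_mul, Matrix.smul_mul, Matrix.one_mul]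
  rw [h4] at h3
  rw [smul_sub, smul_smul, smul_smul, he, one_smul] at h3
  rw [sub_smul]
  have : A * X + ((ε * t ^ 3) • X - t • X) = A * X := by
    conv_rhs => rw [h3]
    abel
  exact left_eq_add.1 this.symm |>.symm ▸ rfl

theorem cast_eq (e : ℤˣ) : (((e : ℤˣ) : ℤ) : K) = 1 ∧ e = 1 ∨ (((e : ℤˣ) : ℤ) : K) = -1 ∧ e = -1 := by
  rcases Int.units_eq_one_or e with h | h
  · left; rw [h]; simp
  · right; rw [h]; simp

theorem two_ne : (2 : K) ≠ 0 := by
  intro h
  have h3 : ((3 : ℕ) : K) = 0 := CharP.cast_eq_zero K 3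
  have : (1 : K) = 0 := by
    have h5 : (1 : K) = ((3 : ℕ) : K) - 2 := by push_cast; ring
    rw [h5, h3, h, sub_zero]
  exact one_ne_zero this

theorem neg_one_ne : (-1 : K) ≠ 1 := by
  intro h
  apply two_ne (K := K)
  linear_combination -h

theorem sl_neg_one_ne : (-1 : SpecialLinearGroup (Fin 2) K) ≠ 1 := by
  intro h
  have := congrFun (congrFun (H40.SL2Tori.sl_congr h) 0) 0
  rw [Matrix.SpecialLinearGroup.coe_neg, Matrix.SpecialLinearGroup.coe_one] at this
  simp only [neg_apply, one_apply_eq] at this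
  exact neg_one_ne this

/-- elements acting with a nontrivial fixed point -/
theorem free (hsq : ¬ IsSquare (-1 : K)) (p : ℤˣ × SpecialLinearGroup (Fin 2) K)
    (h0 : (p.2 : Matrix (Fin 2) (Fin 2) K).trace ≠ 0) (h1 : (p.2 : Matrix (Fin 2) (Fin 2) K).trace ≠ 1)
    (h2 : (p.2 : Matrix (Fin 2) (Fin 2) K).trace ≠ -1) {X : Matrix (Fin 2) (Fin 2) K} (hX : act p X = X) : X = 0 := by
  have h := fixed p hX
  rcases smul_eq_zero.1 h with h | h
  · exfalso
    set t := (p.2 : Matrix (Fin 2) (Fin 2) K).trace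
    rcases cast_eq (K := K) p.1 with ⟨he, -⟩ | ⟨he, -⟩
    · rw [he] at h
      have h3 : t * ((t - 1) * (t + 1)) = 0 := by linear_combination h
      rcases mul_eq_zero.1 h3 with h3 | h3
      · exact h0 h3
      · rcases mul_eq_zero.1 h3 with h3 | h3
        · exact h1 (sub_eq_zero.1 h3)
        · exact h2 (eq_neg_of_add_eq_zero_left h3)
    · rw [he] at h
      have h3 : t * (t * t + 1) = 0 := by linear_combination -h
      rcases mul_eq_zero.1 h3 with h3 | h3
      · exact h0 h3
      · exact hsq ⟨t, (eq_neg_of_add_eq_zero_left h3).symm⟩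
  · exact h

theorem fr_neg_one : fr (-1 : SpecialLinearGroup (Fin 2) K) = -1 := by
  apply H40.SL2Tori.sl_ext
  ext i j
  simp only [fr, Matrix.SpecialLinearGroup.map_apply_coe, RingHom.mapMatrix_apply, map_apply, Matrix.SpecialLinearGroup.coe_neg,
    Matrix.SpecialLinearGroup.coe_one, neg_apply, map_neg]
  fin_cases i <;> fin_cases j <;> simp

theorem act_neg (e : ℤˣ) (X : Matrix (Fin 2) (Fin 2) K) : act (e, -1) X = act (e, 1) X := by
  simp only [act, fr_neg_one, map_one, Matrix.SpecialLinearGroup.coe_neg, Matrix.SpecialLinearGroup.coe_one, transpose_neg, transpose_one,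
    Matrix.mul_neg, Matrix.neg_mul, neg_neg]

theorem rho_neg (e : ℤˣ) : rho K ι (e, -1) = rho K ι (e, 1) := by
  apply MulEquiv.ext
  intro w
  rw [rho_apply, rho_apply]
  simp only [act_neg]

theorem rho_inv (w : WW K ι) : rho K ι (-1, 1) w = w⁻¹ := by
  rw [rho_apply]
  apply Multiplicative.toAdd.injective
  rw [toAdd_inv]
  funext i
  rw [toAdd_ofAdd]
  simp [act]

/-- the kernel of the action -/
theorem ker_rho [Nonempty ι] {p : ℤˣ × SpecialLinearGroup (Fin 2) K} (h : rho K ι p = 1) : p.1 = 1 ∧ (p.2 = 1 ∨ p.2 = -1) := by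
  have hX : ∀ X : Matrix (Fin 2) (Fin 2) K, act p X = X := by
    intro X
    have h1 := congrArg (fun f : MulAut (WW K ι) => Multiplicative.toAdd (f (Multiplicative.ofAdd (fun _ => X))) (Classical.arbitrary ι)) h
    exact h1
  obtain ⟨e, A⟩ := p
  have hdet : (A : Matrix (Fin 2) (Fin 2) K) 0 0 * (A : Matrix (Fin 2) (Fin 2) K) 1 1 -
      (A : Matrix (Fin 2) (Fin 2) K) 0 1 * (A : Matrix (Fin 2) (Fin 2) K) 1 0 = 1 := by
    rw [← Matrix.det_fin_two]; exact A.2
  have h1 := hX !![1, 0; 0, 0]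
  have h2 := hX !![0, 0; 0, 1]
  have h3 := hX !![0, 1; 0, 0]
  have h11 := congrFun (congrFun h1 1) 1
  have h10 := congrFun (congrFun h1 0) 0
  have h20 := congrFun (congrFun h2 0) 0
  have h30 := congrFun (congrFun h3 0) 1
  simp only [act, Matrix.smul_apply, Matrix.mul_apply, Fin.sum_univ_two, transpose_apply, fr, Matrix.SpecialLinearGroup.map_apply_coe,
    RingHom.mapMatrix_apply, map_apply, frobenius_def, of_apply, cons_val', cons_val_zero, cons_val_one, cons_val_fin_one, mul_zero,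
    mul_one, zero_mul, add_zero, zero_add, smul_eq_mul] at h11 h10 h20 h30
  set a := (A : Matrix (Fin 2) (Fin 2) K) 0 0 with ha
  set b := (A : Matrix (Fin 2) (Fin 2) K) 0 1 with hb
  set c := (A : Matrix (Fin 2) (Fin 2) K) 1 0 with hc
  set d := (A : Matrix (Fin 2) (Fin 2) K) 1 1 with hd
  have hE := cast_eq (K := K) e
  set E : K := (((e : ℤˣ) : ℤ) : K) with hEd
  have hE2 : E * E = 1 := by rcases hE with ⟨h, -⟩ | ⟨h, -⟩ <;> rw [h] <;> ring
  have hE0 : E ≠ 0 := left_ne_zero_of_mul_eq_one hE2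
  have c0 : c = 0 := by
    rcases mul_eq_zero.1 h11 with h | h
    · exact absurd h hE0
    · exact pow_eq_zero_iff (n := 4) (by norm_num) |>.1 (by linear_combination h)
  have b0 : b = 0 := by
    rcases mul_eq_zero.1 h20 with h | h
    · exact absurd h hE0
    · exact pow_eq_zero_iff (n := 4) (by norm_num) |>.1 (by linear_combination h)
  rw [c0, b0] at hdet
  have had : a * d = 1 := by linear_combination hdet
  have hEd2 : E * d ^ 2 = 1 := by linear_combination h30 - E * d ^ 2 * had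
  have hE1 : E = 1 := by
    have h4 : d ^ 4 = 1 := by linear_combination (E * d ^ 2 + 1) * hEd2 - d ^ 4 * hE2
    have h5 : E * a ^ 4 = 1 := by linear_combination h10
    linear_combination h4 + h5 * (d ^ 4) - E * (a ^ 3 * d ^ 3 + a ^ 2 * d ^ 2 + a * d + 1) * had
  refine ⟨?_, ?_⟩
  · rcases hE with ⟨h, h'⟩ | ⟨h, h'⟩
    · exact h'
    · exact absurd (h.symm.trans hE1) neg_one_ne
  · apply H40.SL2Tori.sq_one_scalar two_ne
    apply H40.SL2Tori.sl_ext
    rw [hE1] at hEd2
    have ha2 : a * a = 1 := by linear_combination (a * d + 1) * had - a ^ 2 * hEd2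
    ext i j
    fin_cases i <;> fin_cases j <;>
      simp [Matrix.mul_apply, Fin.sum_univ_two, ← ha, ← hb, ← hc, ← hd, b0, c0, ha2]
    linear_combination hEd2

theorem ord_of [Nonempty ι] (p : ℤˣ × SpecialLinearGroup (Fin 2) K) {n : ℕ}
    (h : ∀ k : ℕ, (p.1 ^ k = 1 ∧ (p.2 ^ k = 1 ∨ p.2 ^ k = -1)) ↔ n ∣ k) : ∃ x : EE K ι, orderOf x = n := by
  have h1 : ∀ k : ℕ, rho K ι p ^ k = 1 ↔ n ∣ k := by
    intro k
    rw [← h k, ← map_pow]
    constructor
    · intro h2
      exact ker_rho h2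
    · rintro ⟨h2, h3 | h3⟩
      · have : p ^ k = 1 := Prod.ext h2 h3
        rw [this, map_one]
      · have : p ^ k = ((1 : ℤˣ), (-1 : SpecialLinearGroup (Fin 2) K)) := Prod.ext h2 h3
        rw [this, rho_neg]
        exact map_one _
  refine ⟨SemidirectProduct.inr ⟨rho K ι p, ⟨p, rfl⟩⟩, ?_⟩
  rw [orderOf_injective _ SemidirectProduct.inr_injective, ← Subgroup.orderOf_coe]
  apply Nat.dvd_antisymm
  · exact orderOf_dvd_of_pow_eq_one ((h1 n).2 dvd_rfl)
  · exact (h1 _).1 (pow_orderOf_eq_one _)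

theorem neg_one_pow_iff (k : ℕ) : (-1 : ℤˣ) ^ k = 1 ↔ 2 ∣ k := by
  rw [← even_iff_two_dvd]
  rcases Nat.even_or_odd k with h | h
  · simp [h]
  · rw [h.neg_one_pow]
    constructor
    · intro h2; exact absurd h2 (by decide)
    · intro h2; exact absurd h2 (Nat.not_even_iff_odd.2 h)

/-- the unipotent element -/
def uu : SpecialLinearGroup (Fin 2) K := ⟨!![1, 1; 0, 1], by simp [Matrix.det_fin_two]⟩

omit [CharP K 3] in
theorem uu_sq : ((uu * uu : SpecialLinearGroup (Fin 2) K) : Matrix (Fin 2) (Fin 2) K) = !![1, 2; 0, 1] := by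
  rw [Matrix.SpecialLinearGroup.coe_mul]
  change !![(1 : K), 1; 0, 1] * !![(1 : K), 1; 0, 1] = _
  ext i j; fin_cases i <;> fin_cases j <;> simp [Matrix.mul_apply, Fin.sum_univ_two]
  norm_num

theorem three_eq : (3 : K) = 0 := by exact_mod_cast (CharP.cast_eq_zero K 3)

theorem uu_cube : (uu : SpecialLinearGroup (Fin 2) K) ^ 3 = 1 := by
  rw [pow_succ, sq]
  apply H40.SL2Tori.sl_ext
  rw [Matrix.SpecialLinearGroup.coe_mul, uu_sq, Matrix.SpecialLinearGroup.coe_one]
  change !![(1 : K), 2; 0, 1] * !![(1 : K), 1; 0, 1] = _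
  ext i j; fin_cases i <;> fin_cases j <;> simp [Matrix.mul_apply, Fin.sum_univ_two]
  linear_combination three_eq (K := K)

theorem uu_ne : (uu : SpecialLinearGroup (Fin 2) K) ≠ 1 := by
  intro h
  have := congrFun (congrFun (H40.SL2Tori.sl_congr h) 0) 1
  rw [Matrix.SpecialLinearGroup.coe_one] at this
  change (1 : K) = _ at this
  simp at this

theorem uu_order : orderOf (uu : SpecialLinearGroup (Fin 2) K) = 3 := by
  haveI : Fact (Nat.Prime 3) := ⟨Nat.prime_three⟩
  exact orderOf_eq_prime uu_cube uu_ne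

theorem exists_six [Nonempty ι] : ∃ x : EE K ι, orderOf x = 6 := by
  apply ord_of (-1, uu)
  intro k
  simp only
  rw [neg_one_pow_iff]
  constructor
  · rintro ⟨h2, h3⟩
    have h4 : 3 ∣ 2 * k := by
      rw [← uu_order (K := K)]
      apply orderOf_dvd_of_pow_eq_one
      rcases h3 with h3 | h3
      · rw [mul_comm, pow_mul, h3, one_pow]
      · rw [mul_comm, pow_mul, h3, neg_one_sq]
    omega
  · intro h6
    refine ⟨by omega, Or.inl ?_⟩
    rw [← orderOf_dvd_iff_pow_eq_one, uu_order]; omega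

theorem fr_uu : fr (uu : SpecialLinearGroup (Fin 2) K) = uu := by
  apply H40.SL2Tori.sl_ext
  simp only [fr, Matrix.SpecialLinearGroup.map_apply_coe, RingHom.mapMatrix_apply]
  ext i j
  rw [map_apply]
  change frobenius K 3 (!![(1 : K), 1; 0, 1] i j) = !![(1 : K), 1; 0, 1] i j
  fin_cases i <;> fin_cases j <;> simp

theorem exists_nine [Nonempty ι] : ∃ x : EE K ι, orderOf x = 9 := by
  let g : (rho K ι).range := ⟨rho K ι (1, uu), ⟨_, rfl⟩⟩
  let w : WW K ι := Multiplicative.ofAdd (fun _ => !![0, 0; 0, 1])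
  let x : EE K ι := ⟨w, g⟩
  have hg3 : g ^ 3 = 1 := by
    apply Subtype.ext
    change (rho K ι (1, uu)) ^ 3 = 1
    rw [← map_pow]
    have : ((1 : ℤˣ), (uu : SpecialLinearGroup (Fin 2) K)) ^ 3 = 1 := Prod.ext (one_pow _) uu_cube
    rw [this, map_one]
  have h9 : x ^ 9 = 1 := orderOf_dvd_iff_pow_eq_one.1 (dvd_three cube x hg3)
  have h3 : x ^ 3 ≠ 1 := by
    intro h
    have h1 : (x * x * x).left = 1 := by
      have : x * x * x = x ^ 3 := by rw [pow_succ, sq]
      rw [this, h]; rfl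
    rw [SemidirectProduct.mul_left, SemidirectProduct.mul_left, SemidirectProduct.mul_right] at h1
    have h2 := congrArg (fun f : WW K ι => Multiplicative.toAdd f (Classical.arbitrary ι) 0 0) h1
    have e1 : ∀ i, Multiplicative.toAdd ((rho K ι).range.subtype x.right x.left) i = act (1, uu) !![0, 0; 0, 1] := fun _ => rfl
    have e2 : ∀ i, Multiplicative.toAdd ((rho K ι).range.subtype (x.right * x.right) x.left) i =
      act (1, uu) (act (1, uu) !![0, 0; 0, 1]) := fun _ => rfl
    have e3 : Multiplicative.toAdd (x.left * (rho K ι).range.subtype x.right x.left * (rho K ι).range.subtype (x.right * x.right) x.left)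
        (Classical.arbitrary ι) 0 0 = (!![(0 : K), 0; 0, 1] + act (1, uu) !![0, 0; 0, 1] + act (1, uu) (act (1, uu) !![0, 0; 0, 1]) : Matrix (Fin 2) (Fin 2) K) 0 0 := rfl
    have e4 : (0 : K) = (!![(0 : K), 0; 0, 1] + act (1, uu) !![0, 0; 0, 1] + act (1, uu) (act (1, uu) !![0, 0; 0, 1]) : Matrix (Fin 2) (Fin 2) K) 0 0 := by
      rw [← e3]; exact h2.symm
    have hT : (!![(1 : K), 1; 0, 1])ᵀ = !![1, 0; 1, 1] := by ext i j; fin_cases i <;> fin_cases j <;> rfl
    have e5 : act (1, uu) (!![(0 : K), 0; 0, 1] : Matrix (Fin 2) (Fin 2) K) = !![1, 1; 1, 1] := by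
      simp only [act, fr_uu]
      change ((((1 : ℤˣ) : ℤ) : K)) • (!![(1 : K), 1; 0, 1] * !![(0 : K), 0; 0, 1] * (!![(1 : K), 1; 0, 1])ᵀ) = _
      rw [hT, Matrix.mul_fin_two, Matrix.mul_fin_two]
      simp
    have e6 : act (1, uu) (!![(1 : K), 1; 1, 1] : Matrix (Fin 2) (Fin 2) K) = !![4, 2; 2, 1] := by
      simp only [act, fr_uu]
      change ((((1 : ℤˣ) : ℤ) : K)) • (!![(1 : K), 1; 0, 1] * !![(1 : K), 1; 1, 1] * (!![(1 : K), 1; 0, 1])ᵀ) = _
      rw [hT, Matrix.mul_fin_two, Matrix.mul_fin_two]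
      simp
      norm_num
    rw [e5, e6] at e4
    simp at e4
    apply neg_one_ne (K := K)
    linear_combination e4 + three_eq (K := K)
  haveI : Fact (Nat.Prime 3) := ⟨Nat.prime_three⟩
  exact ⟨x, orderOf_eq_prime_pow (p := 3) (n := 1) (by simpa using h3) (by simpa using h9)⟩

variable [Fintype K]

theorem exists_split' [Nonempty ι] (hq : Fintype.card K % 4 = 3) : ∃ x : EE K ι, orderOf x = Fintype.card K - 1 := by
  obtain ⟨a, -, ha, -⟩ := H40.SL2Tori.exists_split (F := K)
  apply ord_of (-1, a)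
  intro k
  simp only
  rw [neg_one_pow_iff]
  constructor
  · rintro ⟨h2, h3⟩
    have h4 : Fintype.card K - 1 ∣ 2 * k := by
      rw [← ha]
      apply orderOf_dvd_of_pow_eq_one
      rcases h3 with h3 | h3
      · rw [mul_comm, pow_mul, h3, one_pow]
      · rw [mul_comm, pow_mul, h3, neg_one_sq]
    obtain ⟨r, hr⟩ : ∃ r, Fintype.card K - 1 = 2 * r := ⟨(Fintype.card K - 1) / 2, by omega⟩
    rw [hr] at h4 ⊢
    have h5 : r ∣ k := Nat.dvd_of_mul_dvd_mul_left (by norm_num) h4
    have h6 : Nat.Coprime 2 r := by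
      rw [Nat.coprime_two_left, Nat.odd_iff]; omega
    exact h6.mul_dvd_of_dvd_of_dvd h2 h5
  · intro h6
    refine ⟨dvd_trans (by omega) h6, Or.inl ?_⟩
    rw [← orderOf_dvd_iff_pow_eq_one, ha]; exact h6

theorem exists_nonsplit' [Nonempty ι] (hq : Fintype.card K % 4 = 3) : ∃ x : EE K ι, orderOf x = (Fintype.card K + 1) / 2 := by
  obtain ⟨a, -, ha, -⟩ := H40.SL2Tori.exists_nonsplit (F := K)
  apply ord_of (1, a)
  intro k
  simp only
  rw [one_pow]
  obtain ⟨r, hr⟩ : ∃ r, Fintype.card K + 1 = 2 * r := ⟨(Fintype.card K + 1) / 2, by omega⟩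
  rw [hr, Nat.mul_div_cancel_left _ (by norm_num)]
  constructor
  · rintro ⟨-, h3⟩
    have h4 : Fintype.card K + 1 ∣ 2 * k := by
      rw [← ha]
      apply orderOf_dvd_of_pow_eq_one
      rcases h3 with h3 | h3
      · rw [mul_comm, pow_mul, h3, one_pow]
      · rw [mul_comm, pow_mul, h3, neg_one_sq]
    rw [hr] at h4
    exact Nat.dvd_of_mul_dvd_mul_left (by norm_num) h4
  · intro h6
    refine ⟨rfl, ?_⟩
    apply H40.SL2Tori.sq_one_scalar two_ne
    rw [← pow_add, ← two_mul, ← orderOf_dvd_iff_pow_eq_one, ha, hr]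
    exact Nat.mul_dvd_mul_left _ h6

/-- the orders of the elements -/
theorem order_cases (hq : Fintype.card K % 8 = 3) (x : EE K ι) :
    orderOf x ∣ 6 ∨ orderOf x ∣ 9 ∨ orderOf x ∣ Fintype.card K - 1 ∨ orderOf x ∣ (Fintype.card K + 1) / 2 := by
  obtain ⟨⟨e, A⟩, hp⟩ := x.right.2
  have hpow : ∀ n, (x.right : MulAut (WW K ι)) ^ n = rho K ι (e ^ n, A ^ n) := by
    intro n; rw [← hp, ← map_pow]; rfl
  have hsq : ¬ IsSquare (-1 : K) := by
    rw [FiniteField.isSquare_neg_one_iff]; omega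
  have he2 : e ^ 2 = 1 := Int.units_sq e
  have hAA := sq_eq' A
  have key : ∀ {n : ℕ}, rho K ι (e ^ n, A ^ n) = 1 → x.right ^ n = 1 := by
    intro n h
    apply Subtype.ext
    rw [Subgroup.coe_pow, hpow, h]; rfl
  have hneg : ∀ {n : ℕ} {B : SpecialLinearGroup (Fin 2) K}, e ^ n = 1 → (B = 1 ∨ B = -1) → rho K ι (e ^ n, B) = 1 := by
    rintro n B h1 (rfl | rfl)
    · rw [h1]; exact map_one _
    · rw [h1, rho_neg]; exact map_one _
  have cubic : A ^ 3 = 1 ∨ A ^ 3 = -1 → orderOf x ∣ 6 ∨ orderOf x ∣ 9 := by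
    intro hA
    rcases Int.units_eq_one_or e with h | h
    · right
      exact dvd_three cube x (n := 3) (key (hneg (by rw [h, one_pow]) hA))
    · left
      apply dvd_six x
      · intro w
        change ((x.right ^ 3 : (rho K ι).range) : MulAut (WW K ι)) w = w⁻¹
        rw [Subgroup.coe_pow, hpow, ← rho_inv (K := K) w]
        have h3 : e ^ 3 = -1 := by rw [h]; decide
        rw [h3]
        rcases hA with hA | hA
        · rw [hA]
        · rw [hA, rho_neg]
      · apply key
        apply hneg (by rw [show 6 = 2 * 3 by norm_num, pow_mul, he2, one_pow])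
        left
        rcases hA with hA | hA
        · rw [show 6 = 3 * 2 by norm_num, pow_mul, hA, one_pow]
        · rw [show 6 = 3 * 2 by norm_num, pow_mul, hA, neg_one_sq]
  by_cases h0 : (A : Matrix (Fin 2) (Fin 2) K).trace = 0
  · -- an element of square `-1`
    left
    have hA : A ^ 2 = -1 := by
      apply H40.SL2Tori.sl_ext
      rw [sq, Matrix.SpecialLinearGroup.coe_mul, hAA, h0, zero_smul, zero_sub, Matrix.SpecialLinearGroup.coe_neg,
        Matrix.SpecialLinearGroup.coe_one]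
    exact dvd_three cube x (n := 2) (key (hneg he2 (Or.inr hA)))
  by_cases h1 : (A : Matrix (Fin 2) (Fin 2) K).trace = 1
  · rcases cubic (Or.inr (by
      apply H40.SL2Tori.sl_ext
      rw [pow_succ, sq, Matrix.SpecialLinearGroup.coe_mul, Matrix.SpecialLinearGroup.coe_mul, hAA, h1, one_smul, Matrix.sub_mul, hAA, h1,
        one_smul, Matrix.one_mul, Matrix.SpecialLinearGroup.coe_neg, Matrix.SpecialLinearGroup.coe_one]
      abel)) with h | h
    · exact Or.inl h
    · exact Or.inr (Or.inl h)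
  by_cases h2 : (A : Matrix (Fin 2) (Fin 2) K).trace = -1
  · rcases cubic (Or.inl (by
      apply H40.SL2Tori.sl_ext
      rw [pow_succ, sq, Matrix.SpecialLinearGroup.coe_mul, Matrix.SpecialLinearGroup.coe_mul, hAA, h2, neg_one_smul, Matrix.sub_mul,
        Matrix.neg_mul, hAA, h2, neg_one_smul, Matrix.one_mul, Matrix.SpecialLinearGroup.coe_one]
      abel)) with h | h
    · exact Or.inl h
    · exact Or.inr (Or.inl h)
  -- now the element acts freely
  have hfree : ∀ w : WW K ι, (rho K ι).range.subtype x.right w = w → w = 1 := by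
    intro w hw
    have hw' : rho K ι (e, A) w = w := by rw [hp]; exact hw
    apply Multiplicative.toAdd.injective
    rw [toAdd_one]
    funext i
    have := congrArg (fun f : WW K ι => Multiplicative.toAdd f i) hw'
    exact free hsq (e, A) h0 h1 h2 this
  right; right
  by_cases hE : H43.GL2Basic.HasEig (A : Matrix (Fin 2) (Fin 2) K)
  · left
    rw [H43.GL2Basic.hasEig_iff, A.det_coe] at hE
    obtain ⟨l, hl⟩ := hE
    have hl0 : l ≠ 0 := by rintro rfl; simp at hl
    have hll : l * l⁻¹ = 1 := mul_inv_cancel₀ hl0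
    have htr : (A : Matrix (Fin 2) (Fin 2) K).trace = l + l⁻¹ := by
      apply mul_left_cancel₀ hl0
      linear_combination -hl - hll
    have hne : l ≠ l⁻¹ := by
      intro h
      have h4 : (l - 1) * (l + 1) = 0 := by
        rw [← h] at hll
        linear_combination hll
      rw [← h] at htr
      rcases mul_eq_zero.1 h4 with h5 | h5
      · apply h2
        rw [htr, sub_eq_zero.1 h5]
        linear_combination three_eq (K := K)
      · apply h1
        rw [htr, eq_neg_of_add_eq_zero_left h5]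
        linear_combination -three_eq (K := K)
    have hc := H43.GL2Count.sl_card_centralizer_split A l l⁻¹ hne htr hll
    have hA : A ^ (Fintype.card K - 1) = 1 := by
      have hm : A ∈ Subgroup.centralizer ({A} : Set (SpecialLinearGroup (Fin 2) K)) := by
        rw [Subgroup.mem_centralizer_singleton_iff]
      rw [← hc]
      exact congrArg Subtype.val (pow_card_eq_one' (x := (⟨A, hm⟩ : Subgroup.centralizer ({A} : Set (SpecialLinearGroup (Fin 2) K)))))
    apply dvd_of_free x hfree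
    apply key
    apply hneg _ (Or.inl hA)
    obtain ⟨r, hr⟩ : ∃ r, Fintype.card K - 1 = 2 * r := ⟨(Fintype.card K - 1) / 2, by omega⟩
    rw [hr, pow_mul, he2, one_pow]
  · right
    have hc := H43.GL2Count.sl_card_centralizer_aniso A hE
    have hA : A ^ (Fintype.card K + 1) = 1 := by
      have hm : A ∈ Subgroup.centralizer ({A} : Set (SpecialLinearGroup (Fin 2) K)) := by
        rw [Subgroup.mem_centralizer_singleton_iff]
      rw [← hc]
      exact congrArg Subtype.val (pow_card_eq_one' (x := (⟨A, hm⟩ : Subgroup.centralizer ({A} : Set (SpecialLinearGroup (Fin 2) K)))))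
    apply dvd_of_free x hfree
    apply key
    apply hneg
    · obtain ⟨r, hr⟩ : ∃ r, (Fintype.card K + 1) / 2 = 2 * r := ⟨(Fintype.card K + 1) / 4, by omega⟩
      rw [hr, pow_mul, he2, one_pow]
    · apply H40.SL2Tori.sq_one_scalar two_ne
      rw [← pow_add, ← two_mul, show 2 * ((Fintype.card K + 1) / 2) = Fintype.card K + 1 by omega, hA]

/-- the spectrum of the extension -/
theorem spectrum [Nonempty ι] (hq : Fintype.card K % 8 = 3) (d : ℕ) :
    (∃ x : EE K ι, orderOf x = d) ↔ (d ∣ 6 ∨ d ∣ 9 ∨ d ∣ Fintype.card K - 1 ∨ d ∣ (Fintype.card K + 1) / 2) := by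
  have hdvd : ∀ {n : ℕ}, n ≠ 0 → (∃ x : EE K ι, orderOf x = n) → d ∣ n → ∃ x : EE K ι, orderOf x = d := by
    rintro n hn0 ⟨x, rfl⟩ hd
    exact ⟨x ^ (orderOf x / d), orderOf_pow_orderOf_div hn0 hd⟩
  constructor
  · rintro ⟨x, rfl⟩
    exact order_cases hq x
  · rintro (h | h | h | h)
    · exact hdvd (by norm_num) exists_six h
    · exact hdvd (by norm_num) exists_nine h
    · exact hdvd (by omega) (exists_split' (by omega)) h
    · exact hdvd (by omega) (exists_nonsplit' (by omega)) h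

end act

/-- the spectra of the two triple products agree -/
theorem range_eq {R R' E : Type*} [Group R] [Group R'] [Group E] {c e : ℕ} {S : ℕ → Prop} (h1S : S 1)
    (hR : ∀ d : ℕ, (∃ r : R, orderOf r = d) ↔ (S d ∨ d ∣ c ∨ d ∣ e))
    (hR' : ∀ d : ℕ, (∃ r : R', orderOf r = d) ↔ (S d ∨ d ∣ c ∨ d ∣ e))
    (hE : ∀ d : ℕ, (∃ r : E, orderOf r = d) ↔ S d) :
    Set.range (orderOf : E × R' × R' → ℕ) = Set.range (orderOf : R × R × R → ℕ) := by
  ext d
  constructor
  · rintro ⟨⟨x, y, z⟩, rfl⟩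
    obtain ⟨x', hx⟩ := (hR (orderOf x)).2 (Or.inl ((hE _).1 ⟨x, rfl⟩))
    obtain ⟨y', hy⟩ := (hR (orderOf y)).2 ((hR' _).1 ⟨y, rfl⟩)
    obtain ⟨z', hz⟩ := (hR (orderOf z)).2 ((hR' _).1 ⟨z, rfl⟩)
    exact ⟨(x', y', z'), by simp only [Prod.orderOf, hx, hy, hz]⟩
  · rintro ⟨⟨x, y, z⟩, rfl⟩
    simp only [Set.mem_range, Prod.orderOf]
    have hx := (hR _).1 ⟨x, rfl⟩
    have hy := (hR _).1 ⟨y, rfl⟩
    have hz := (hR _).1 ⟨z, rfl⟩
    generalize orderOf x = a at hx
    generalize orderOf y = b at hy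
    generalize orderOf z = d at hz
    clear x y z
    have main : ∀ u v w : ℕ, S u → (S v ∨ v ∣ c ∨ v ∣ e) → (S w ∨ w ∣ c ∨ w ∣ e) →
        ∃ t : E × R' × R', Nat.lcm (orderOf t.1) (Nat.lcm (orderOf t.2.1) (orderOf t.2.2)) = Nat.lcm u (Nat.lcm v w) := by
      intro u v w hu hv hw
      obtain ⟨x', hx⟩ := (hE u).2 hu
      obtain ⟨y', hy⟩ := (hR' v).2 hv
      obtain ⟨z', hz⟩ := (hR' w).2 hw
      exact ⟨(x', y', z'), by rw [hx, hy, hz]⟩
    by_cases h1 : S a
    · exact main _ _ _ h1 hy hz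
    by_cases h2 : S b
    · obtain ⟨t, ht⟩ := main _ _ _ h2 hx hz
      exact ⟨t, ht.trans (by rw [← Nat.lcm_assoc, Nat.lcm_comm b, Nat.lcm_assoc])⟩
    by_cases h3 : S d
    · obtain ⟨t, ht⟩ := main _ _ _ h3 hx hy
      exact ⟨t, ht.trans (by rw [Nat.lcm_comm, Nat.lcm_assoc])⟩
    have hx' := hx.resolve_left h1
    have hy' := hy.resolve_left h2
    have hz' := hz.resolve_left h3
    -- two of them divide the same number
    have merge : ∀ u v w : ℕ, ((u ∣ c ∧ v ∣ c) ∨ (u ∣ e ∧ v ∣ e)) → (S w ∨ w ∣ c ∨ w ∣ e) →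
        ∃ t : E × R' × R', Nat.lcm (orderOf t.1) (Nat.lcm (orderOf t.2.1) (orderOf t.2.2)) = Nat.lcm u (Nat.lcm v w) := by
      intro u v w huv hw
      obtain ⟨t, ht⟩ := main 1 (Nat.lcm u v) w h1S (by
        rcases huv with ⟨h, h'⟩ | ⟨h, h'⟩
        · exact Or.inr (Or.inl (Nat.lcm_dvd h h'))
        · exact Or.inr (Or.inr (Nat.lcm_dvd h h'))) hw
      exact ⟨t, ht.trans (by rw [Nat.lcm_one_left, Nat.lcm_assoc])⟩
    by_cases hxy : (a ∣ c ∧ b ∣ c) ∨ (a ∣ e ∧ b ∣ e)
    · exact merge _ _ _ hxy hz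
    by_cases hxz : (a ∣ c ∧ d ∣ c) ∨ (a ∣ e ∧ d ∣ e)
    · obtain ⟨t, ht⟩ := merge _ _ _ hxz hy
      exact ⟨t, ht.trans (by rw [Nat.lcm_comm d])⟩
    have hyz : (b ∣ c ∧ d ∣ c) ∨ (b ∣ e ∧ d ∣ e) := by
      rcases hx' with h | h <;> rcases hy' with h' | h' <;> rcases hz' with h'' | h''
      · exact Or.inl ⟨h', h''⟩
      · exact absurd (Or.inl ⟨h, h'⟩) hxy
      · exact absurd (Or.inl ⟨h, h''⟩) hxz
      · exact Or.inr ⟨h', h''⟩
      · exact Or.inl ⟨h', h''⟩
      · exact absurd (Or.inr ⟨h, h''⟩) hxz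
      · exact absurd (Or.inr ⟨h, h'⟩) hxy
      · exact Or.inr ⟨h', h''⟩
    obtain ⟨t, ht⟩ := merge _ _ _ hyz hx
    exact ⟨t, ht.trans (by rw [← Nat.lcm_assoc, Nat.lcm_comm])⟩

end H24.ReeSpec
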