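import Mathlib
import Cfsg.Agent.Lib.H54.RA0
import Cfsg.Agent.Lib.H3.ThompsonTransfer

/-! S3330, piece U4b: a subgroup of index two. -/

set_option autoImplicit false
set_option maxRecDepth 100000

namespace H24.S8Ind

open Equiv Subgroup H54.RA

theorem odd_index {G : Type*} [Group G] [Finite G] (R : Subgroup G) (t : G) (htR : t ∈ R)
    (ht2 : t * t = 1) (h : ∀ g : G, g * t * g⁻¹ ∈ R → g ∈ R) : Odd R.index := by
  classical
  haveI : Fact (Nat.Prime 2) := ⟨Nat.prime_two⟩
  -- a Sylow subgroup of `R` containing `t`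
  have hz : IsPGroup 2 (zpowers (⟨t, htR⟩ : R)) := by
    apply IsPGroup.of_card (n := (if t = 1 then 0 else 1))
    rw [Nat.card_zpowers]
    split_ifs with h1
    · rw [pow_zero]
      exact orderOf_eq_one_iff.2 (Subtype.ext h1)
    · rw [pow_one]
      exact orderOf_eq_prime (Subtype.ext (by simpa [pow_two] using ht2))
        (fun h2 => h1 (congrArg Subtype.val h2))
  obtain ⟨P₀, hP₀⟩ := hz.exists_le_sylow
  have htP : (⟨t, htR⟩ : R) ∈ (P₀ : Subgroup R) := hP₀ (mem_zpowers _)
  have hP : IsPGroup 2 ((P₀ : Subgroup R).map R.subtype) := P₀.isPGroup'.map _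
  obtain ⟨S, hS⟩ := hP.exists_le_sylow
  have hSn : Group.IsNilpotent (S : Subgroup G) := S.isPGroup'.isNilpotent
  have heq : (P₀ : Subgroup R).map R.subtype = S := by
    by_contra hne
    have hlt : ((P₀ : Subgroup R).map R.subtype).subgroupOf (S : Subgroup G) < ⊤ := by
      rw [lt_top_iff_ne_top]
      intro h1
      rw [subgroupOf_eq_top] at h1
      exact hne (le_antisymm hS h1)
    have h1 := Group.normalizerCondition_of_isNilpotent _ hlt
    obtain ⟨g, hg1, hg2⟩ := SetLike.exists_of_lt h1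
    have hgt : (g : G) * t * (g : G)⁻¹ ∈ (P₀ : Subgroup R).map R.subtype := by
      have h3 : (⟨t, hS ⟨_, htP, rfl⟩⟩ : (S : Subgroup G)) ∈
          ((P₀ : Subgroup R).map R.subtype).subgroupOf (S : Subgroup G) := ⟨_, htP, rfl⟩
      exact (mem_normalizer_iff.1 hg1 _).1 h3
    have hgR : (g : G) ∈ R := by
      apply h
      obtain ⟨r, hr, hre⟩ := hgt
      rw [← hre]
      exact r.2
    -- `S ∩ R` is a 2-subgroup of `R` containing `P₀`
    have h4 : IsPGroup 2 ((S : Subgroup G).subgroupOf R) :=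
      S.isPGroup'.comap_of_injective R.subtype R.subtype_injective
    have h5 : (P₀ : Subgroup R) ≤ (S : Subgroup G).subgroupOf R := by
      intro x hx
      exact hS ⟨x, hx, rfl⟩
    have h6 := P₀.is_maximal' h4 h5
    apply hg2
    have h7 : (⟨(g : G), hgR⟩ : R) ∈ (P₀ : Subgroup R) := by
      rw [← h6]; exact g.2
    exact ⟨_, h7, rfl⟩
  have h8 : (S : Subgroup G) ≤ R := by
    rw [← heq]
    rintro _ ⟨x, -, rfl⟩
    exact x.2
  exact Odd.of_dvd_nat (H3.ThompsonTransfer.odd_index_sylow S) (index_dvd_of_le h8)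

theorem u4b {G : Type*} [Group G] [Finite G] {f : Perm (Fin 8) →* G} (hf : Function.Injective f)
    (h : ∀ g : G, g * f (swap 3 7) * g⁻¹ ∈ f.range → g ∈ f.range) :
    ∃ K : Subgroup G, K.index = 2 ∧ ∀ p, f p ∈ K ↔ Perm.sign p = 1 := by
  classical
  have ht2 : f (swap 3 7) * f (swap 3 7) = 1 := by
    rw [← map_mul, swap_mul_self, map_one]
  have hodd := odd_index f.range (f (swap 3 7)) ⟨_, rfl⟩ ht2 h
  have hQ : (alternatingGroup (Fin 8)).map f ≤ f.range := by
    rintro _ ⟨x, -, rfl⟩
    exact ⟨x, rfl⟩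
  have hQi : ((alternatingGroup (Fin 8)).map f).relIndex f.range = 2 := by
    rw [MonoidHom.range_eq_map, relIndex_map_map_of_injective _ _ hf, relIndex_top_right]
    exact alternatingGroup.index_eq_two
  have hmem : ∀ p, f p ∈ (alternatingGroup (Fin 8)).map f ↔ Perm.sign p = 1 := by
    intro p
    constructor
    · rintro ⟨x, hx, hxe⟩
      rw [← hf hxe]
      exact Perm.mem_alternatingGroup.1 hx
    · intro hp
      exact ⟨p, Perm.mem_alternatingGroup.2 hp, rfl⟩
  obtain ⟨K, hKn, hK, htK⟩ := H3.ThompsonTransfer.exists_index_two f.range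
    ((alternatingGroup (Fin 8)).map f) hQ hodd hQi (f (swap 3 7)) (by rw [pow_two, ht2]) (by
      intro g hg
      obtain ⟨p, rfl⟩ := h g (hQ hg)
      rw [← map_inv, ← map_mul, ← map_mul, hmem] at hg
      rw [map_mul, map_mul, Perm.sign_swap (by decide)] at hg
      simp at hg)
  refine ⟨K, hK, ?_⟩
  have hcomap : (K.comap f).index = 2 := by
    have h1 : (K.comap f).index ∣ 2 := by
      rw [index_comap, ← hK]
      exact relIndex_dvd_index_of_normal _ _
    rcases (Nat.dvd_prime Nat.prime_two).1 h1 with h2 | h2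
    · rw [index_eq_one] at h2
      exact absurd (show swap 3 7 ∈ K.comap f by rw [h2]; trivial) htK
    · exact h2
  have := Equiv.Perm.eq_alternatingGroup_of_index_eq_two hcomap
  intro p
  rw [← mem_comap, this, Perm.mem_alternatingGroup]

end H24.S8Ind
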